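import Cfsg.Agent.H96.Simple
import Cfsg.Agent.H93.Group
import Cfsg.Agent.H94.SatBasic

/-!
A simplicity criterion for the fusion system of a group whose top automizer may have an element of order three,
lying in the subgroup generated by conjugates of `S` in the normalizer of a normal subgroup `V` of `S`.
-/
set_option autoImplicit false

namespace Cfsg.Agent.H58.PSpFour

open Cfsg

variable {G : Type*} [Group G]

/-- The data of the criterion. -/
structure Data (S : Subgroup G) (V : Subgroup G) (n : G) : Prop where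
  le : V ≤ S
  normal : ∀ s ∈ S, ∀ v ∈ V, s * v * s⁻¹ ∈ V
  normV : ∀ v ∈ V, n * v * n⁻¹ ∈ V
  normS : ∀ s ∈ S, n * s * n⁻¹ ∈ S
  cube : n ^ 3 = 1
  gen : n ∈ Subgroup.closure {y | ∃ g s, (∀ v ∈ V, g * v * g⁻¹ ∈ V) ∧ s ∈ S ∧ y = g * s * g⁻¹}
  move : n ≠ 1 → ∃ v ∈ V, n * v ≠ v * n
  top : ∀ g, (∀ x ∈ S, g * x * g⁻¹ ∈ S) → ∃ s ∈ S, ∃ e : ℕ, g = s * n ^ e
  closed : ∀ T : Subgroup G, T ≤ S → T ≠ ⊥ →
    (∀ x ∈ T, ∀ g, g * x * g⁻¹ ∈ S → g * x * g⁻¹ ∈ T) → T = S

/-- Transport of the data by an automorphism. -/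
theorem Data.map {S V : Subgroup G} {n : G} (h : Data S V n) (φ : MulAut G) :
    Data (S.map φ.toMonoidHom) (V.map φ.toMonoidHom) (φ n) where
  le := Subgroup.map_mono h.le
  normal := by
    rintro _ ⟨s, hs, rfl⟩ _ ⟨v, hv, rfl⟩
    exact ⟨_, h.normal s hs v hv, by simp⟩
  normV := by
    rintro _ ⟨v, hv, rfl⟩
    exact ⟨_, h.normV v hv, by simp⟩
  normS := by
    rintro _ ⟨s, hs, rfl⟩
    exact ⟨_, h.normS s hs, by simp⟩
  cube := by rw [← map_pow, h.cube, map_one]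
  gen := by
    have h1 := Subgroup.mem_map_of_mem φ.toMonoidHom h.gen
    rw [MonoidHom.map_closure] at h1
    refine Subgroup.closure_mono ?_ h1
    rintro _ ⟨_, ⟨g, s, hg, hs, rfl⟩, rfl⟩
    refine ⟨φ g, φ s, ?_, ⟨s, hs, rfl⟩, by simp⟩
    rintro _ ⟨v, hv, rfl⟩
    exact ⟨_, hg v hv, by simp⟩
  move := fun hn => by
    obtain ⟨v, hv, hne⟩ := h.move fun h' => hn (by rw [h', map_one])
    refine ⟨φ v, ⟨v, hv, rfl⟩, fun h' => hne (φ.injective ?_)⟩
    rw [map_mul, map_mul]; exact h'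
  top := by
    intro g hg
    obtain ⟨g', rfl⟩ := φ.surjective g
    obtain ⟨s, hs, e, rfl⟩ := h.top g' fun x hx => by
      obtain ⟨y, hy, hy'⟩ := hg (φ x) ⟨x, hx, rfl⟩
      have : g' * x * g'⁻¹ = y := φ.injective (by simp only [map_mul, map_inv]; exact hy'.symm)
      rwa [this]
    exact ⟨φ s, ⟨s, hs, rfl⟩, e, by simp⟩
  closed := by
    intro T hT hne hcl
    have hco : (T.comap φ.toMonoidHom).map φ.toMonoidHom = T :=
      Subgroup.map_comap_eq_self_of_surjective φ.surjective T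
    have h' := h.closed (T.comap φ.toMonoidHom) (fun x hx => by
      obtain ⟨y, hy, hy'⟩ := hT hx
      rwa [← φ.injective hy'])
      (fun h0 => hne (by rw [← hco, h0, Subgroup.map_bot]))
      fun x hx g hg => by
        have := hcl (φ x) hx (φ g) ⟨_, hg, by simp⟩
        simpa using this
    rw [← hco, h']

variable [Finite G]

/-- The criterion. -/
theorem isSimple_of_data {p : ℕ} [Fact p.Prime] (hp : Nat.Coprime p 3) (S : Sylow p G) {V : Subgroup G} {n : G}
    (h : Data (S : Subgroup G) V n) (hS1 : (S : Subgroup G) ≠ ⊥) :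
    (groupFusionSystem (S : Subgroup G)).IsSimple p := by
  classical
  refine ⟨H93.isSaturated_groupFusionSystem S, hS1, ?_⟩
  rintro T E ⟨⟨hEsat, -, hsub, hT, hinv, hfrat⟩, -⟩
  by_cases hT1 : T = ⊥
  · exact Or.inl hT1
  have hTS : T = (S : Subgroup G) := by
    refine h.closed T hT.1 hT1 fun x hx g hgx => ?_
    have hzx : Subgroup.zpowers x ≤ T := Subgroup.zpowers_le.2 hx
    refine hT.2 (Subgroup.zpowers x) hzx ((MulAut.conj g).toMonoidHom.comp (Subgroup.zpowers x).subtype)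
      ⟨hzx.trans hT.1, ?_, g, fun y => rfl⟩ ⟨x, Subgroup.mem_zpowers x⟩
    rintro ⟨y, hy⟩
    obtain ⟨k, rfl⟩ := Subgroup.mem_zpowers_iff.1 hy
    show g * x ^ k * g⁻¹ ∈ (S : Subgroup G)
    rw [← conj_zpow]
    exact Subgroup.zpow_mem _ hgx k
  subst hTS
  refine Or.inr ⟨rfl, ?_⟩
  set F := groupFusionSystem (S : Subgroup G) with hF
  -- conjugations on `V` lying in `E`
  have hK : ∀ y ∈ Subgroup.closure
      {y | ∃ g s, (∀ v ∈ V, g * v * g⁻¹ ∈ V) ∧ s ∈ (S : Subgroup G) ∧ y = g * s * g⁻¹},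
      (∀ v ∈ V, y * v * y⁻¹ ∈ V) ∧ ∃ φ ∈ E.Hom V, ∀ v : V, φ v = y * (v : G) * y⁻¹ := by
    intro y hy
    induction hy using Subgroup.closure_induction with
    | mem y hy =>
      obtain ⟨g, s, hg, hs, rfl⟩ := hy
      have hgi : ∀ v ∈ V, g⁻¹ * v * g ∈ V := by
        have hfin : Function.Surjective (fun v : V => (⟨g * v * g⁻¹, hg v v.2⟩ : V)) :=
          Finite.injective_iff_surjective.1 fun a b hab =>
            Subtype.ext (mul_left_cancel (mul_right_cancel (congrArg Subtype.val hab)))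
        intro v hv
        obtain ⟨w, hw⟩ := hfin ⟨v, hv⟩
        have hw' : g * (w : G) * g⁻¹ = v := congrArg Subtype.val hw
        have : g⁻¹ * v * g = w := by rw [← hw']; group
        rw [this]; exact w.2
      refine ⟨fun v hv => ?_, ?_⟩
      · have h1 := hg _ (h.normal s hs _ (hgi v hv))
        convert h1 using 1; group
      obtain ⟨α, hα, φ₀, hφ₀, heq⟩ := hfrat V h.le (conjHom V g)
        ⟨h.le, fun x => h.le (hg x x.2), g, fun x => rfl⟩
      have h0 := (E.le_of_mem hφ₀).2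
      have hαv : ∀ v : V, φ₀ v ∈ (S : Subgroup G) := h0
      obtain ⟨φ₁, hφ₁, hφ₁'⟩ : ∃ φ₁ ∈ E.Hom φ₀.range, ∀ y, φ₁ y = H93.invHom φ₀ (E.injective_of_mem hφ₀) y :=
        ⟨_, H93.invHom_mem hφ₀, fun y => rfl⟩
      have hr : ∀ y, φ₁ y ∈ V := fun y => by
        rw [hφ₁']; exact H93.invHom_mem_src _ _ y
      obtain ⟨φ₂, hφ₂, hφ₂'⟩ := H96.exists_comp E hφ₁ (E.conj_mem h.le hs) hr
      obtain ⟨φ₃, hφ₃, hφ₃'⟩ := H96.exists_comp E hφ₂ hφ₀ (fun y => by
        rw [hφ₂']; exact h.normal s hs _ (hr y))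
      obtain ⟨χ, hχ, hχ'⟩ := hinv φ₀.range (H93.range_le hφ₀) φ₃ hφ₃ α hα
      have hVle : ∀ v : V, (v : G) ∈
          (φ₀.range.subgroupOf (S : Subgroup G)).map ((S : Subgroup G).subtype.comp α.toMonoidHom) := by
        intro v
        refine ⟨⟨φ₀ ⟨g⁻¹ * v * g, hgi v v.2⟩, h0 _⟩, ⟨_, rfl⟩, ?_⟩
        show ((α ⟨φ₀ _, _⟩ : (S : Subgroup G)) : G) = v
        rw [← heq _ (h0 _)]
        show g * (g⁻¹ * (v : G) * g) * g⁻¹ = v
        group
      refine ⟨_, H93.restrict_mem hχ (fun v hv => hVle ⟨v, hv⟩), fun v => ?_⟩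
      set v₀ : V := ⟨g⁻¹ * (v : G) * g, hgi v v.2⟩ with hv₀
      have hαv₀ : ((α ⟨φ₀ v₀, h0 v₀⟩ : (S : Subgroup G)) : G) = v := by
        rw [← heq _ (h0 _)]
        show g * (g⁻¹ * (v : G) * g) * g⁻¹ = v
        group
      set z : φ₀.range := ⟨φ₀ v₀, v₀, rfl⟩ with hz
      have hφ₁z : φ₁ z = v₀ := by
        rw [hφ₁']
        exact H93.invHom_apply φ₀ (E.injective_of_mem hφ₀) v₀ _
      have hkey := hχ' z (apply_mem_of_mem E hφ₃ z) (by
        show ((α ⟨φ₀ v₀, _⟩ : (S : Subgroup G)) : G) ∈ _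
        rw [hαv₀]; exact hVle v)
      refine Eq.trans ?_ (hkey.trans ?_)
      · show χ _ = χ _
        congr 1
        exact Subtype.ext hαv₀.symm
      · have h3 : φ₃ z = φ₀ ⟨s * (v₀ : G) * s⁻¹, h.normal s hs _ v₀.2⟩ := by
          rw [hφ₃']
          congr 1
          refine Subtype.ext ?_
          show φ₂ z = _
          rw [hφ₂']
          show s * φ₁ z * s⁻¹ = _
          rw [hφ₁z]
        have h4 := heq ⟨s * (v₀ : G) * s⁻¹, h.normal s hs _ v₀.2⟩ (h0 _)
        have h5 : (⟨φ₃ z, apply_mem_of_mem E hφ₃ z⟩ : (S : Subgroup G)) = ⟨_, h0 ⟨s * (v₀ : G) * s⁻¹, h.normal s hs _ v₀.2⟩⟩ :=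
          Subtype.ext h3
        rw [h5, ← h4]
        show g * (s * (g⁻¹ * (v : G) * g) * s⁻¹) * g⁻¹ = g * s * g⁻¹ * (v : G) * (g * s * g⁻¹)⁻¹
        group
    | one =>
      exact ⟨fun v hv => by simpa using hv, _, E.conj_mem h.le (S : Subgroup G).one_mem, fun v => rfl⟩
    | mul a b _ _ ha hb =>
      obtain ⟨haV, φ, hφ, hφ'⟩ := ha
      obtain ⟨hbV, ψ, hψ, hψ'⟩ := hb
      refine ⟨fun v hv => ?_, ?_⟩
      · have := haV _ (hbV v hv); convert this using 1; group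
      obtain ⟨χ, hχ, hχ'⟩ := H96.exists_comp E hψ hφ fun v => by rw [hψ']; exact hbV v v.2
      refine ⟨χ, hχ, fun v => ?_⟩
      rw [hχ', hφ']
      show a * ψ v * a⁻¹ = _
      rw [hψ']; group
    | inv a _ ha =>
      obtain ⟨haV, φ, hφ, hφ'⟩ := ha
      have hfin : Function.Surjective (fun v : V => (⟨a * v * a⁻¹, haV v v.2⟩ : V)) :=
        Finite.injective_iff_surjective.1 fun x y hxy =>
          Subtype.ext (mul_left_cancel (mul_right_cancel (congrArg Subtype.val hxy)))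
      have hai : ∀ v ∈ V, a⁻¹ * v * a⁻¹⁻¹ ∈ V := by
        intro v hv
        obtain ⟨w, hw⟩ := hfin ⟨v, hv⟩
        have hw' : a * (w : G) * a⁻¹ = v := congrArg Subtype.val hw
        have : a⁻¹ * v * a⁻¹⁻¹ = w := by rw [← hw']; group
        rw [this]; exact w.2
      refine ⟨hai, _, H93.restrict_mem (H93.invHom_mem hφ) (fun v hv => ⟨⟨_, hai v hv⟩, by
        rw [hφ']; group⟩ : V ≤ φ.range), fun v => ?_⟩
      have hval : φ ⟨a⁻¹ * (v : G) * a⁻¹⁻¹, hai v v.2⟩ = v := by rw [hφ']; group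
      show H93.invHom φ (E.injective_of_mem hφ) ⟨v, _⟩ = _
      have := H93.invHom_apply φ (E.injective_of_mem hφ) ⟨a⁻¹ * (v : G) * a⁻¹⁻¹, hai v v.2⟩ ⟨_, rfl⟩
      refine Eq.trans ?_ this
      congr 1
      exact Subtype.ext hval.symm
  obtain ⟨hnV, φ, hφ, hφ'⟩ := hK n h.gen
  -- extension to `S`
  have hrange : φ.range = V := by
    refine Subgroup.eq_of_le_of_card_ge (fun x ⟨v, hv⟩ => hv ▸ (hφ' v).symm ▸ hnV v v.2) ?_
    rw [H93.card_range (E.injective_of_mem hφ)]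
  have hnorm : ∀ s ∈ (S : Subgroup G), s ∈ Subgroup.normalizer (V : Set G) := by
    intro s hs
    rw [Subgroup.mem_normalizer_iff]
    refine fun v => ⟨h.normal s hs v, fun hv => ?_⟩
    have := h.normal s⁻¹ (inv_mem hs) _ hv
    simpa [mul_assoc] using this
  have hfull : E.IsFullyNormalized V := ⟨h.le, fun R _ =>
    le_trans (Subgroup.card_le_of_le inf_le_left)
      (Subgroup.card_le_of_le (le_inf le_rfl hnorm))⟩
  have hrec := (H94.fullyNormalized_spec S.isPGroup' hEsat hfull).2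
  obtain ⟨ψ, hψ, hψ'⟩ := H93.exists_extension hφ hrange hrec
  have hext : (S : Subgroup G) ≤ FusionSystem.extender (S : Subgroup G) V φ := by
    intro s hs
    refine H96.mem_extender.2 ⟨hs, hnorm s hs, n * s * n⁻¹, h.normS s hs, fun v hv => ?_⟩
    rw [hφ', hφ']
    show n * (s * (v : G) * s⁻¹) * n⁻¹ = n * s * n⁻¹ * (n * (v : G) * n⁻¹) * (n * s * n⁻¹)⁻¹
    group
  obtain ⟨-, -, x, hx⟩ := hsub _ hψ
  -- the elements of `N(S)` whose conjugation lies in `E`
  set L := ((E.autGroup (S : Subgroup G)).comap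
    (H93.conjAut ⊤ (S : Subgroup G))).map (FusionSystem.normalizerIn ⊤ (S : Subgroup G)).subtype with hL
  have hSL : (S : Subgroup G) ≤ L := by
    intro s hs
    exact ⟨⟨s, Subgroup.mem_top s, Subgroup.le_normalizer hs⟩,
      H93.inn_le_autGroup E le_rfl (H96.mem_inn_iff.2 ⟨s, hs, fun y => rfl⟩), rfl⟩
  have hxmap : ∀ y ∈ (S : Subgroup G), x * y * x⁻¹ ∈ (S : Subgroup G) := by
    intro y hy
    have := hx ⟨y, hext hy⟩
    rw [← this]
    exact H93.apply_mem hψ _
  have hxN : x ∈ Subgroup.normalizer ((S : Subgroup G) : Set G) := by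
    have hfin : Function.Surjective
        (fun v : (S : Subgroup G) => (⟨x * v * x⁻¹, hxmap v v.2⟩ : (S : Subgroup G))) :=
      Finite.injective_iff_surjective.1 fun a b hab =>
        Subtype.ext (mul_left_cancel (mul_right_cancel (congrArg Subtype.val hab)))
    rw [Subgroup.mem_normalizer_iff]
    refine fun y => ⟨hxmap y, fun hy => ?_⟩
    obtain ⟨w, hw⟩ := hfin ⟨_, hy⟩
    rw [← mul_left_cancel (mul_right_cancel (congrArg Subtype.val hw))]
    exact w.2
  have hxL : x ∈ L := by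
    refine ⟨⟨x, Subgroup.mem_top x, hxN⟩, ?_, rfl⟩
    refine H93.mem_autGroup_of le_rfl (H93.restrict_mem hψ hext) fun y => ?_
    exact hx _
  obtain ⟨s, hs, e, rfl⟩ := h.top x hxmap
  have hnL : n ∈ L := by
    by_cases hn1 : n = 1
    · exact hn1 ▸ L.one_mem
    obtain ⟨v, hv, hne⟩ := h.move hn1
    have he : n ^ e ∈ L := by
      have := L.mul_mem (L.inv_mem (hSL hs)) hxL
      rwa [inv_mul_cancel_left] at this
    rcases (show e % 3 = 0 ∨ e % 3 = 1 ∨ e % 3 = 2 by omega) with h3 | h3 | h3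
    · exfalso
      have hne' : n ^ e = 1 := by
        rw [← Nat.mod_add_div e 3, h3, zero_add, pow_mul, h.cube, one_pow]
      have hagree : ∀ w ∈ V, s * w * s⁻¹ = n * w * n⁻¹ := by
        intro w hw
        have h1 := hψ' ⟨w, hw⟩
        rw [hφ', hx, hne', mul_one] at h1
        exact h1
      obtain ⟨k, hk⟩ := S.isPGroup' ⟨s, hs⟩
      have hk' : s ^ p ^ k = 1 := congrArg Subtype.val hk
      have hpow : ∀ m : ℕ, ∀ w ∈ V, s ^ m * w * (s ^ m)⁻¹ = n ^ m * w * (n ^ m)⁻¹ := by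
        intro m
        induction m with
        | zero => intro w _; simp
        | succ m ih =>
          intro w hw
          calc s ^ (m + 1) * w * (s ^ (m + 1))⁻¹ = s ^ m * (s * w * s⁻¹) * (s ^ m)⁻¹ := by
                rw [pow_succ]; group
            _ = n ^ m * (n * w * n⁻¹) * (n ^ m)⁻¹ := by
                rw [hagree w hw, ih _ (h.normV w hw)]
            _ = _ := by rw [pow_succ]; group
      have hv1 := hpow (p ^ k) v hv
      rw [hk', one_mul, inv_one, mul_one] at hv1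
      have hcomm : Commute (n ^ p ^ k) v := eq_mul_inv_iff_mul_eq.1 hv1 |>.symm
      obtain ⟨m, hm⟩ := exists_pow_eq_self_of_coprime (x := n) (n := p ^ k)
        (Nat.Coprime.pow_left k hp |>.coprime_dvd_right (orderOf_dvd_of_pow_eq_one h.cube))
      apply hne
      have := hcomm.pow_left m
      rwa [hm] at this
    · rwa [← Nat.mod_add_div e 3, h3, pow_add, pow_mul, h.cube, one_pow, mul_one, pow_one] at he
    · rw [← Nat.mod_add_div e 3, h3, pow_add, pow_mul, h.cube, one_pow, mul_one] at he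
      have := L.mul_mem he he
      rwa [← pow_add, show (2 + 2) = 3 + 1 from rfl, pow_add, h.cube, one_mul, pow_one] at this
  have hall : F.autGroup (S : Subgroup G) ≤ E.autGroup (S : Subgroup G) := by
    intro α hα
    rw [hF, H93.autGroup_groupFusion S le_rfl] at hα
    obtain ⟨g, -, hg⟩ := H93.mem_autInducedBy.1 hα
    obtain ⟨s', hs', e', rfl⟩ := h.top g fun y hy => by
      rw [← hg ⟨y, hy⟩]; exact (α ⟨y, hy⟩).2
    obtain ⟨g₁, hg₁, hg₁'⟩ := L.mul_mem (hSL hs') (L.pow_mem hnL e')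
    have : α = H93.conjAut ⊤ (S : Subgroup G) g₁ := MulEquiv.ext fun y => Subtype.ext (by
      rw [hg, H93.conjAut_apply]
      rw [← hg₁']
      rfl)
    rw [this]; exact hg₁
  intro P
  refine Set.Subset.antisymm (hsub P) fun φ hφ => ?_
  have hP := (F.le_of_mem hφ).1
  obtain ⟨α, hα, φ₀, hφ₀, heq⟩ := hfrat P hP φ hφ
  have h0 := (E.le_of_mem hφ₀).2
  obtain ⟨χ, hχ, hχe⟩ := H96.exists_comp E hφ₀ ((H93.mem_autGroup_iff le_rfl).1 (hall hα)) h0
  exact H96.mem_congr E hχ fun y => by rw [heq y (h0 y), hχe y]; rfl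
where
  apply_mem_of_mem {Ω : Type _} [Group Ω] {S : Subgroup Ω} (E : FusionSystem S) {P : Subgroup Ω}
      {φ : P →* Ω} (hφ : φ ∈ E.Hom P) (x : P) : φ x ∈ S := (E.le_of_mem hφ).2 x

/-- The criterion with data on some Sylow subgroup. -/
theorem isSimple_of_data_sylow {p : ℕ} [Fact p.Prime] (hp : Nat.Coprime p 3) (S₀ : Sylow p G)
    {V : Subgroup G} {n : G} (h : Data (S₀ : Subgroup G) V n) (hS1 : (S₀ : Subgroup G) ≠ ⊥)
    (S : Sylow p G) : (groupFusionSystem (S : Subgroup G)).IsSimple p := by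
  obtain ⟨c, hc⟩ := MulAction.exists_smul_eq G S₀ S
  have hS : (S : Subgroup G) = (S₀ : Subgroup G).map (MulAut.conj c).toMonoidHom := by
    rw [← hc, Sylow.coe_subgroup_smul]
    rfl
  refine isSimple_of_data hp S (V := V.map (MulAut.conj c).toMonoidHom) (n := MulAut.conj c n)
    (hS ▸ h.map (MulAut.conj c)) ?_
  rw [hS]
  exact fun h' => hS1 ((Subgroup.map_eq_bot_iff_of_injective _ (MulAut.conj c).injective).1 h')

end Cfsg.Agent.H58.PSpFour
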