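import Cfsg.Agent.H58.PSpFour.Quaternion
import Cfsg.Agent.H58.PSpFour.Setup

/-!
Explicit elements of `Sp₄(F)` built from a quaternion pair in `SL₂(F)`.
-/
set_option autoImplicit false

namespace Cfsg.Agent.H58.PSpFour

open Matrix MatrixGroups Cfsg

variable {F : Type*} [Field F] {i j : SL(2, F)}

lemma ij_coe (hii : i * i = -1) (hjj : j * j = -1) (hji : j * i = -(i * j)) :
    IJ (i : Matrix (Fin 2) (Fin 2) F) (j : Matrix (Fin 2) (Fin 2) F) := by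
  refine ⟨?_, ?_, ?_⟩
  · simpa using congrArg (fun x : SL(2, F) => (x : Matrix (Fin 2) (Fin 2) F)) hii
  · simpa using congrArg (fun x : SL(2, F) => (x : Matrix (Fin 2) (Fin 2) F)) hjj
  · simpa using congrArg (fun x : SL(2, F) => (x : Matrix (Fin 2) (Fin 2) F)) hji

lemma qq_k {I J : Matrix (Fin 2) (Fin 2) F} : qq I J 0 0 0 1 = I * J := by simp [qq]

set_option maxHeartbeats 2000000 in
/-- The explicit elements used for fusion: `g` (a Hadamard element) and the element `n` of order three. -/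
theorem exists_elements (h2 : (2 : F) ≠ 0) (hii : i * i = -1) (hjj : j * j = -1)
    (hji : j * i = -(i * j)) :
    ∃ (g : Sp4 F) (n : SL(2, F)),
      g * dd (1, -1) * g⁻¹ = sw ∧ g * sw * g⁻¹ = dd (1, -1) ∧ g * dd (i, i) * g⁻¹ = dd (i, i) ∧
      g * dd (j, j) * g⁻¹ = dd (-(i * j), -(i * j)) ∧
      n ^ 3 = 1 ∧ n * i * n⁻¹ = j ∧ n * j * n⁻¹ = i * j ∧ n * (i * j) * n⁻¹ = i ∧
      dd (n, n) = dd (i, 1) * sw * (g * dd (j, 1) * g⁻¹) * dd (j, 1) * (g * dd (i, 1) * g⁻¹) := by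
  have h := ij_coe hii hjj hji
  set I := (i : Matrix (Fin 2) (Fin 2) F) with hI
  set J := (j : Matrix (Fin 2) (Fin 2) F) with hJ
  set s := qq I J (2⁻¹ : F) (-2⁻¹) 0 0 with hs
  set s' := qq I J (2⁻¹ : F) (2⁻¹) 0 0 with hs'
  have hItr : I.trace = 0 := trace_eq_zero_of_sq i.2 h.ii
  have hsdet : ∀ c : F, c * c = 2⁻¹ * 2⁻¹ → (qq I J (2⁻¹ : F) c 0 0).det = 2⁻¹ := by
    intro c hc
    have : qq I J (2⁻¹ : F) c 0 0 = (2⁻¹ : F) • (1 : Matrix (Fin 2) (Fin 2) F) + c • I := by simp [qq]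
    rw [this, H69.det_smul_add_smul, hItr, show I.det = 1 from i.2, sq, sq, hc]
    field_simp
    norm_num
  have hmem : ∀ a : Matrix (Fin 2) (Fin 2) F, a.det = 2⁻¹ → blk4 a a a (-a) ∈ symplecticGroup (Fin 2) F := by
    intro a ha
    rw [mem_sp_iff]
    simp only [transpose_neg, neg_mul, mul_neg, neg_neg, transpose_mul_j2_mul, ha, add_neg_cancel, true_and]
    have : (2⁻¹ : F) • (j2 : Matrix (Fin 2) (Fin 2) F) + (2⁻¹ : F) • j2 = j2 := by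
      rw [← add_smul, ← two_mul, mul_inv_cancel₀ h2, one_smul]
    exact ⟨this, this⟩
  let g : Sp4 F := ⟨blk4 s s s (-s), hmem s (hsdet _ (by ring))⟩
  let g' : Sp4 F := ⟨blk4 s' s' s' (-s'), hmem s' (hsdet _ rfl)⟩
  have hg' : g⁻¹ = g' := by
    refine inv_eq_of_mul_eq_one_right (Subtype.ext ?_)
    show blk4 s s s (-s) * blk4 s' s' s' (-s') = 1
    rw [blk4_mul, ← blk4_one, hs, hs', ← qq_one (i := I) (j := J), ← qq_zero (i := I) (j := J)]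
    simp only [qq_mul h, qq_add, qq_neg]
    congr 2 <;> field_simp <;> norm_num
  set n' := qq I J (-2⁻¹ : F) (-2⁻¹) (-2⁻¹) (-2⁻¹) with hn'
  have hndet : n'.det = 1 := by
    have hch := H69.mul_self_fin_two n'
    have htr : n'.trace = -1 := by
      rw [hn', trace_qq h i.2 j.2 h2]; field_simp
    have hsum : n' * n' + n' + qq I J 1 0 0 0 = qq I J 0 0 0 0 := by
      rw [hn']
      simp only [qq_mul h, qq_add]
      congr 1 <;> field_simp <;> norm_num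
    rw [qq_one, qq_zero, hch, htr] at hsum
    have e := congrFun (congrFun hsum 0) 0
    simp at e
    linear_combination -e
  let n : SL(2, F) := ⟨n', hndet⟩
  have hval : ∀ x y : SL(2, F), (x : Matrix (Fin 2) (Fin 2) F) = (y : Matrix (Fin 2) (Fin 2) F) → x = y :=
    fun x y hxy => Subtype.ext hxy
  have hk : ((i * j : SL(2, F)) : Matrix (Fin 2) (Fin 2) F) = qq I J 0 0 0 1 := by
    rw [qq_k, Matrix.SpecialLinearGroup.coe_mul]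
  have hi' : I = qq I J 0 1 0 0 := qq_i.symm
  have hj' : J = qq I J 0 0 1 0 := qq_j.symm
  have key : ∀ (x y : SL(2, F)) (a b c d a' b' c' d' : F),
      (x : Matrix (Fin 2) (Fin 2) F) = qq I J a b c d → (y : Matrix (Fin 2) (Fin 2) F) = qq I J a' b' c' d' →
      n' * qq I J a b c d = qq I J a' b' c' d' * n' → n * x * n⁻¹ = y := by
    intro x y a b c d a' b' c' d' hx hy he
    rw [mul_inv_eq_iff_eq_mul]
    refine hval _ _ ?_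
    rw [Matrix.SpecialLinearGroup.coe_mul, Matrix.SpecialLinearGroup.coe_mul, hx, hy]
    exact he
  refine ⟨g, n, ?_, ?_, ?_, ?_, ?_, ?_, ?_, ?_, ?_⟩
  · rw [hg']
    refine Subtype.ext ?_
    show blk4 s s s (-s) * blk4 (1 : Matrix (Fin 2) (Fin 2) F) 0 0
      ((-1 : SL(2, F)) : Matrix (Fin 2) (Fin 2) F) * blk4 s' s' s' (-s') = blk4 0 1 1 0
    rw [coe_neg_one_sl, ← qq_one (i := I) (j := J), ← qq_zero (i := I) (j := J), hs, hs', blk4_mul, blk4_mul]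
    simp only [qq_mul h, qq_add, qq_neg]
    congr 2 <;> field_simp <;> norm_num
  · rw [hg']
    refine Subtype.ext ?_
    show blk4 s s s (-s) * blk4 0 1 1 0 * blk4 s' s' s' (-s') =
      blk4 (1 : Matrix (Fin 2) (Fin 2) F) 0 0 ((-1 : SL(2, F)) : Matrix (Fin 2) (Fin 2) F)
    rw [coe_neg_one_sl, ← qq_one (i := I) (j := J), ← qq_zero (i := I) (j := J), hs, hs', blk4_mul, blk4_mul]
    simp only [qq_mul h, qq_add, qq_neg]
    congr 2 <;> field_simp <;> norm_num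
  · rw [hg']
    refine Subtype.ext ?_
    show blk4 s s s (-s) * blk4 I 0 0 I * blk4 s' s' s' (-s') = blk4 I 0 0 I
    have goal : blk4 s s s (-s) * blk4 (qq I J 0 1 0 0) (qq I J 0 0 0 0) (qq I J 0 0 0 0) (qq I J 0 1 0 0) *
        blk4 s' s' s' (-s') =
        blk4 (qq I J 0 1 0 0) (qq I J 0 0 0 0) (qq I J 0 0 0 0) (qq I J 0 1 0 0) := by
      rw [hs, hs', blk4_mul, blk4_mul]
      simp only [qq_mul h, qq_add, qq_neg]
      congr 2 <;> field_simp <;> norm_num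
    rwa [qq_i, qq_zero] at goal
  · rw [hg']
    refine Subtype.ext ?_
    show blk4 s s s (-s) * blk4 J 0 0 J * blk4 s' s' s' (-s') =
      blk4 ((-(i * j) : SL(2, F)) : Matrix (Fin 2) (Fin 2) F) 0 0 ((-(i * j) : SL(2, F)) : Matrix (Fin 2) (Fin 2) F)
    rw [Matrix.SpecialLinearGroup.coe_neg, hk]
    have goal : blk4 s s s (-s) * blk4 (qq I J 0 0 1 0) (qq I J 0 0 0 0) (qq I J 0 0 0 0) (qq I J 0 0 1 0) *
        blk4 s' s' s' (-s') =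
        blk4 (-qq I J 0 0 0 1) (qq I J 0 0 0 0) (qq I J 0 0 0 0) (-qq I J 0 0 0 1) := by
      rw [hs, hs', blk4_mul, blk4_mul]
      simp only [qq_mul h, qq_add, qq_neg]
      congr 2 <;> field_simp <;> norm_num
    rwa [qq_j, qq_zero] at goal
  · refine hval _ _ ?_
    rw [pow_succ, pow_two, Matrix.SpecialLinearGroup.coe_mul, Matrix.SpecialLinearGroup.coe_mul,
      Matrix.SpecialLinearGroup.coe_one, ← qq_one (i := I) (j := J)]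
    show n' * n' * n' = _
    rw [hn']
    simp only [qq_mul h]
    congr 1 <;> field_simp <;> norm_num
  · refine key i j 0 1 0 0 0 0 1 0 hi' hj' ?_
    rw [hn']
    simp only [qq_mul h]
    congr 1 <;> ring
  · refine key j (i * j) 0 0 1 0 0 0 0 1 hj' hk ?_
    rw [hn']
    simp only [qq_mul h]
    congr 1 <;> ring
  · refine key (i * j) i 0 0 0 1 0 1 0 0 hk hi' ?_
    rw [hn']
    simp only [qq_mul h]
    congr 1 <;> ring
  · rw [hg']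
    refine Subtype.ext ?_
    show blk4 n' 0 0 n' = blk4 I 0 0 ((1 : SL(2, F)) : Matrix (Fin 2) (Fin 2) F) * blk4 0 1 1 0 *
      (blk4 s s s (-s) * blk4 J 0 0 ((1 : SL(2, F)) : Matrix (Fin 2) (Fin 2) F) * blk4 s' s' s' (-s')) *
      blk4 J 0 0 ((1 : SL(2, F)) : Matrix (Fin 2) (Fin 2) F) *
      (blk4 s s s (-s) * blk4 I 0 0 ((1 : SL(2, F)) : Matrix (Fin 2) (Fin 2) F) * blk4 s' s' s' (-s'))
    rw [Matrix.SpecialLinearGroup.coe_one]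
    have goal : blk4 n' (qq I J 0 0 0 0) (qq I J 0 0 0 0) n' =
        blk4 (qq I J 0 1 0 0) (qq I J 0 0 0 0) (qq I J 0 0 0 0) (qq I J 1 0 0 0) *
          blk4 (qq I J 0 0 0 0) (qq I J 1 0 0 0) (qq I J 1 0 0 0) (qq I J 0 0 0 0) *
        (blk4 s s s (-s) * blk4 (qq I J 0 0 1 0) (qq I J 0 0 0 0) (qq I J 0 0 0 0) (qq I J 1 0 0 0) *
          blk4 s' s' s' (-s')) *
        blk4 (qq I J 0 0 1 0) (qq I J 0 0 0 0) (qq I J 0 0 0 0) (qq I J 1 0 0 0) *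
        (blk4 s s s (-s) * blk4 (qq I J 0 1 0 0) (qq I J 0 0 0 0) (qq I J 0 0 0 0) (qq I J 1 0 0 0) *
          blk4 s' s' s' (-s')) := by
      have a1 : blk4 s s s (-s) * blk4 (qq I J 0 1 0 0) (qq I J 0 0 0 0) (qq I J 0 0 0 0) (qq I J 1 0 0 0) =
          blk4 (qq I J 2⁻¹ 2⁻¹ 0 0) (qq I J 2⁻¹ (-2⁻¹) 0 0) (qq I J 2⁻¹ 2⁻¹ 0 0) (qq I J (-2⁻¹) 2⁻¹ 0 0) := by
        rw [blk4_mul]
        simp only [hs, hs', hn', qq_mul h, qq_add, qq_neg]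
        congr 2 <;> field_simp <;> norm_num
      have a2 : blk4 (qq I J 2⁻¹ 2⁻¹ 0 0) (qq I J 2⁻¹ (-2⁻¹) 0 0) (qq I J 2⁻¹ 2⁻¹ 0 0) (qq I J (-2⁻¹) 2⁻¹ 0 0) * blk4 s' s' s' (-s') =
          blk4 (qq I J 2⁻¹ 2⁻¹ 0 0) (qq I J (-2⁻¹) 2⁻¹ 0 0) (qq I J (-2⁻¹) 2⁻¹ 0 0) (qq I J 2⁻¹ 2⁻¹ 0 0) := by
        rw [blk4_mul]
        simp only [hs, hs', hn', qq_mul h, qq_add, qq_neg]
        congr 2 <;> field_simp <;> norm_num
      have b1 : blk4 s s s (-s) * blk4 (qq I J 0 0 1 0) (qq I J 0 0 0 0) (qq I J 0 0 0 0) (qq I J 1 0 0 0) =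
          blk4 (qq I J 0 0 2⁻¹ (-2⁻¹)) (qq I J 2⁻¹ (-2⁻¹) 0 0) (qq I J 0 0 2⁻¹ (-2⁻¹)) (qq I J (-2⁻¹) 2⁻¹ 0 0) := by
        rw [blk4_mul]
        simp only [hs, hs', hn', qq_mul h, qq_add, qq_neg]
        congr 2 <;> field_simp <;> norm_num
      have b2 : blk4 (qq I J 0 0 2⁻¹ (-2⁻¹)) (qq I J 2⁻¹ (-2⁻¹) 0 0) (qq I J 0 0 2⁻¹ (-2⁻¹)) (qq I J (-2⁻¹) 2⁻¹ 0 0) * blk4 s' s' s' (-s') =
          blk4 (qq I J 2⁻¹ 0 0 (-2⁻¹)) (qq I J (-2⁻¹) 0 0 (-2⁻¹)) (qq I J (-2⁻¹) 0 0 (-2⁻¹)) (qq I J 2⁻¹ 0 0 (-2⁻¹)) := by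
        rw [blk4_mul]
        simp only [hs, hs', hn', qq_mul h, qq_add, qq_neg]
        congr 2 <;> field_simp <;> norm_num
      have c1 : blk4 (qq I J 0 1 0 0) (qq I J 0 0 0 0) (qq I J 0 0 0 0) (qq I J 1 0 0 0) * blk4 (qq I J 0 0 0 0) (qq I J 1 0 0 0) (qq I J 1 0 0 0) (qq I J 0 0 0 0) =
          blk4 (qq I J 0 0 0 0) (qq I J 0 1 0 0) (qq I J 1 0 0 0) (qq I J 0 0 0 0) := by
        rw [blk4_mul]
        simp only [hs, hs', hn', qq_mul h, qq_add, qq_neg]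
        congr 2 <;> field_simp <;> norm_num
      have c2 : blk4 (qq I J 0 0 0 0) (qq I J 0 1 0 0) (qq I J 1 0 0 0) (qq I J 0 0 0 0) * blk4 (qq I J 2⁻¹ 0 0 (-2⁻¹)) (qq I J (-2⁻¹) 0 0 (-2⁻¹)) (qq I J (-2⁻¹) 0 0 (-2⁻¹)) (qq I J 2⁻¹ 0 0 (-2⁻¹)) =
          blk4 (qq I J 0 (-2⁻¹) 2⁻¹ 0) (qq I J 0 2⁻¹ 2⁻¹ 0) (qq I J 2⁻¹ 0 0 (-2⁻¹)) (qq I J (-2⁻¹) 0 0 (-2⁻¹)) := by
        rw [blk4_mul]
        simp only [hs, hs', hn', qq_mul h, qq_add, qq_neg]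
        congr 2 <;> field_simp <;> norm_num
      have c3 : blk4 (qq I J 0 (-2⁻¹) 2⁻¹ 0) (qq I J 0 2⁻¹ 2⁻¹ 0) (qq I J 2⁻¹ 0 0 (-2⁻¹)) (qq I J (-2⁻¹) 0 0 (-2⁻¹)) * blk4 (qq I J 0 0 1 0) (qq I J 0 0 0 0) (qq I J 0 0 0 0) (qq I J 1 0 0 0) =
          blk4 (qq I J (-2⁻¹) 0 0 (-2⁻¹)) (qq I J 0 2⁻¹ 2⁻¹ 0) (qq I J 0 2⁻¹ 2⁻¹ 0) (qq I J (-2⁻¹) 0 0 (-2⁻¹)) := by
        rw [blk4_mul]
        simp only [hs, hs', hn', qq_mul h, qq_add, qq_neg]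
        congr 2 <;> field_simp <;> norm_num
      have c4 : blk4 (qq I J (-2⁻¹) 0 0 (-2⁻¹)) (qq I J 0 2⁻¹ 2⁻¹ 0) (qq I J 0 2⁻¹ 2⁻¹ 0) (qq I J (-2⁻¹) 0 0 (-2⁻¹)) * blk4 (qq I J 2⁻¹ 2⁻¹ 0 0) (qq I J (-2⁻¹) 2⁻¹ 0 0) (qq I J (-2⁻¹) 2⁻¹ 0 0) (qq I J 2⁻¹ 2⁻¹ 0 0) =
          blk4 n' (qq I J 0 0 0 0) (qq I J 0 0 0 0) n' := by
        rw [blk4_mul]
        simp only [hs, hs', hn', qq_mul h, qq_add, qq_neg]
        congr 2 <;> field_simp <;> norm_num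
      rw [a1, a2, b1, b2, c1, c2, c3, c4]
    rwa [qq_i, qq_j, qq_zero, qq_one] at goal

end Cfsg.Agent.H58.PSpFour
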