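import Cfsg.Agent.H58.PSpFour.Model
import Cfsg.Agent.H2.Card
import Cfsg.Agent.H58.PSLThree.Criterion

/-!
The 2-fusion system of `PSp₄(q)`, `q` odd, is simple.
-/
set_option autoImplicit false

namespace Cfsg.Agent.H58.PSpFour

open Matrix MatrixGroups Cfsg
open Cfsg.Agent.H58.PSLThree (extendInvol mem_extendInvol le_extendInvol invol_mem_extendInvol card_extendInvol)

variable {F : Type*} [Field F]

lemma isConj_of_sq_neg_one [Finite F] (h2 : (2 : F) ≠ 0) (x y : SL(2, F)) (hx : x * x = -1) (hy : y * y = -1) :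
    IsConj x y := by
  have hx' : (x : Matrix (Fin 2) (Fin 2) F) * x = -1 := by
    simpa using congrArg (fun z : SL(2, F) => (z : Matrix (Fin 2) (Fin 2) F)) hx
  have hy' : (y : Matrix (Fin 2) (Fin 2) F) * y = -1 := by
    simpa using congrArg (fun z : SL(2, F) => (z : Matrix (Fin 2) (Fin 2) F)) hy
  refine H69.sl2_isConj_of_trace (not_isScalar2_of_sq h2 hx) (not_isScalar2_of_sq h2 hy)
    (by rw [trace_eq_zero_of_sq x.2 hx', trace_eq_zero_of_sq y.2 hy']) (Or.inl ?_)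
  rw [trace_eq_zero_of_sq x.2 hx']
  intro h4
  exact h2 (mul_self_eq_zero.1 (show (2 : F) * 2 = 0 by linear_combination -h4))

lemma dd_ne_sw (x : SL(2, F) × SL(2, F)) : dd x ≠ sw := by
  obtain ⟨a, b⟩ := x
  intro h
  have h' := congrArg Subtype.val h
  rw [coe_dd, coe_sw] at h'
  have := (blk4_inj h').2.1
  exact zero_ne_one this

lemma wreath_psp4 (h2 : (2 : F) ≠ 0) : Wreath (pr.comp (dd (F := F))) (pr sw) where
  ww := by rw [← map_mul, sw_mul_self, map_one]
  wdw := fun a b => by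
    simp only [MonoidHom.comp_apply]
    rw [← map_mul pr, ← map_mul pr, sw_dd_sw]
  ker := fun x => by
    rw [MonoidHom.comp_apply, pr_eq_one]
    refine or_congr ⟨fun h => dd_inj (h.trans (map_one dd).symm), fun h => h ▸ map_one dd⟩
      ⟨fun h => dd_inj h, fun h => h ▸ rfl⟩
  ne := fun x h => by
    rw [MonoidHom.comp_apply, pr_eq_pr] at h
    rcases h with h | h
    · exact dd_ne_sw x h
    · exact dd_ne_sw ((-1, -1)⁻¹ * x) (by rw [map_mul, h, ← mul_assoc, ← map_mul, inv_mul_cancel, map_one, one_mul])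
  cent := fun g hg => by
    obtain ⟨M, rfl⟩ := QuotientGroup.mk'_surjective _ g
    have hM := mul_inv_eq_iff_eq_mul.1 hg
    simp only [MonoidHom.comp_apply] at hM
    rw [← map_mul pr, ← map_mul pr, pr_eq_pr] at hM
    obtain ⟨a, b, c, d, habcd⟩ := exists_blk4 (M : Matrix (Fin 2 ⊕ Fin 2) (Fin 2 ⊕ Fin 2) F)
    have z : ∀ x : Matrix (Fin 2) (Fin 2) F, -x = x → x = 0 := fun x hx => by
      ext s u
      have := congrFun (congrFun hx s) u
      simp only [Matrix.neg_apply] at this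
      have h3 : (2 : F) * x s u = 0 := by linear_combination -this
      simpa using (mul_eq_zero.1 h3).resolve_left h2
    rcases hM with hM | hM
    · have h' := congrArg Subtype.val hM
      simp only [Submonoid.coe_mul, coe_dd, coe_neg_one_sl, Matrix.SpecialLinearGroup.coe_one, habcd,
        blk4_mul, mul_zero, zero_mul, add_zero, zero_add, one_mul, mul_one, mul_neg, neg_mul] at h'
      obtain ⟨-, hb, hc, -⟩ := blk4_inj h'
      have hmem := M.2
      rw [habcd, z b hb, z c hc.symm, mem_sp_diag] at hmem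
      refine ⟨⟨a, hmem.1⟩, ⟨d, hmem.2⟩, Or.inl (congrArg pr (Subtype.ext ?_))⟩
      rw [habcd, z b hb, z c hc.symm]; rfl
    · have h' := congrArg Subtype.val hM
      simp only [Submonoid.coe_mul, coe_dd, coe_neg_one_sl, Matrix.SpecialLinearGroup.coe_one, habcd,
        blk4_mul, mul_zero, zero_mul, add_zero, zero_add, one_mul, mul_one, mul_neg, neg_mul, neg_neg, neg_zero] at h'
      obtain ⟨ha, -, -, hd⟩ := blk4_inj h'
      have hval : ((M * sw : Sp4 F) : Matrix (Fin 2 ⊕ Fin 2) (Fin 2 ⊕ Fin 2) F) = blk4 b 0 0 c := by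
        rw [Submonoid.coe_mul, coe_sw, habcd, z a ha.symm, z d (by rw [hd]), blk4_mul]; simp
      have hmem := (M * sw).2
      rw [hval, mem_sp_diag] at hmem
      refine ⟨⟨b, hmem.1⟩, ⟨c, hmem.2⟩, Or.inr ?_⟩
      simp only [MonoidHom.comp_apply]
      rw [← map_mul pr]
      congr 1
      rw [show dd (⟨b, hmem.1⟩, ⟨c, hmem.2⟩) = M * sw from Subtype.ext hval.symm, mul_assoc, sw_mul_self, mul_one]

/-- The 2-fusion system of `PSp₄(q)`, `q` odd, is simple. -/
theorem isSimple_psp4 [Fintype F] (hodd : Fintype.card F % 2 = 1) (S : Sylow 2 (PSp 2 F)) :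
    (groupFusionSystem (S : Subgroup (PSp 2 F))).IsSimple 2 := by
  classical
  have : Fact (Nat.Prime 2) := ⟨Nat.prime_two⟩
  have h2 := PSLThree.two_ne_zero_of_odd_card hodd
  let Q : Sylow 2 SL(2, F) := default
  obtain ⟨i, hiQ, j, hjQ, hii, hjj, hji, hgen, hbig, hsmall⟩ := exists_quat_data h2 Q
  set QQ : Subgroup SL(2, F) := (Q : Subgroup SL(2, F)) with hQQ
  obtain ⟨g₀, n₀, hgt, hgw, hgi, hgj, hn3, hni, hnj, hnk, hword⟩ := exists_elements h2 hii hjj hji
  have hm1Q : (-1 : SL(2, F)) ∈ QQ := hii ▸ mul_mem hiQ hiQ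
  set D : Subgroup (Sp4 F) := (QQ.prod QQ).map dd with hDdef
  have hDw : ∀ x ∈ D, sw * x * sw ∈ D := by
    rintro _ ⟨⟨a, b⟩, ⟨ha, hb⟩, rfl⟩
    rw [sw_dd_sw]
    exact ⟨(b, a), ⟨hb, ha⟩, rfl⟩
  set P := extendInvol D sw sw_mul_self hDw with hPdef
  have hPmem : ∀ {x}, x ∈ P → ∃ a ∈ QQ, ∃ b ∈ QQ, x = dd (a, b) ∨ x = dd (a, b) * sw := by
    intro x hx
    rcases mem_extendInvol.1 hx with ⟨⟨a, b⟩, ⟨ha, hb⟩, he⟩ | ⟨⟨a, b⟩, ⟨ha, hb⟩, he⟩
    · exact ⟨a, ha, b, hb, Or.inl he.symm⟩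
    · exact ⟨a, ha, b, hb, Or.inr (by rw [he, mul_assoc, sw_mul_self, mul_one])⟩
  have hddP : ∀ {a b}, a ∈ QQ → b ∈ QQ → dd (a, b) ∈ P := fun {a b} ha hb =>
    le_extendInvol ⟨(a, b), ⟨ha, hb⟩, rfl⟩
  have hswP : (sw : Sp4 F) ∈ P := invol_mem_extendInvol
  have hswne : ∀ {a b c d : SL(2, F)}, dd (a, b) ≠ dd (c, d) * sw := by
    intro a b c d h
    have h' := congrArg Subtype.val h
    rw [Submonoid.coe_mul, coe_dd, coe_dd, coe_sw, blk4_mul] at h'
    have := (blk4_inj h').2.1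
    simp at this
    have hd := c.det_coe
    rw [← this, Matrix.det_zero] at hd
    exact zero_ne_one hd
  have hswD : (sw : Sp4 F) ∉ D := by
    rintro ⟨⟨a, b⟩, -, he⟩
    exact dd_ne_sw _ he
  obtain ⟨m, hm⟩ := Q.isPGroup'.exists_card_eq
  rw [← hQQ] at hm
  have hcardP : Nat.card P = 2 * (Nat.card QQ * Nat.card QQ) := by
    rw [hPdef, card_extendInvol hswD, hDdef, Subgroup.card_map_of_injective dd_inj,
      Nat.card_congr (Subgroup.prodEquiv _ _).toEquiv, Nat.card_prod]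
  have hP : IsPGroup 2 P := IsPGroup.of_card (n := 1 + (m + m)) (by
    rw [hcardP, hm, pow_add, pow_add, pow_one])
  have hidx : ¬ 2 ∣ P.index := by
    set q := Fintype.card F with hq
    have hsl := H6.card_sl2 (F := F) hq.symm
    have hQc := QQ.card_mul_index
    rw [hsl] at hQc
    have hi : Odd QQ.index := Nat.odd_iff.2 (Nat.two_dvd_ne_zero.1 Q.not_dvd_index)
    obtain ⟨t, ht⟩ : ∃ t, q = 2 * t + 1 := ⟨q / 2, by omega⟩
    have hG : P.index = QQ.index * QQ.index * q ^ 2 * (2 * t ^ 2 + 2 * t + 1) := by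
      apply Nat.eq_of_mul_eq_mul_left (show 0 < Nat.card P from Nat.card_pos)
      rw [P.card_mul_index, hcardP, H2.card_sp, Nat.card_eq_fintype_card (α := F), ← hq]
      simp only [Finset.prod_range_succ, Finset.prod_range_zero, one_mul]
      norm_num
      have e4 : q ^ 4 - 1 = (q ^ 2 - 1) * (2 * (2 * t ^ 2 + 2 * t + 1)) := by
        have h1 : q ^ 2 = 4 * t ^ 2 + 4 * t + 1 := by rw [ht]; ring
        have h4 : q ^ 4 = (4 * t ^ 2 + 4 * t) * (2 * (2 * t ^ 2 + 2 * t + 1)) + 1 := by rw [ht]; ring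
        rw [h1, Nat.add_sub_cancel]; omega
      rw [e4]
      calc q ^ 4 * ((q ^ 2 - 1) * ((q ^ 2 - 1) * (2 * (2 * t ^ 2 + 2 * t + 1))))
          = q ^ 2 * (2 * (2 * t ^ 2 + 2 * t + 1)) * ((q * (q ^ 2 - 1)) * (q * (q ^ 2 - 1))) := by ring
        _ = _ := by rw [← hQc]; simp only [← Nat.card_eq_fintype_card]; ring
    rw [hG, ← even_iff_two_dvd, Nat.not_even_iff_odd]
    exact ((hi.mul hi).mul (Nat.odd_iff.2 hodd).pow).mul ⟨t ^ 2 + t, by ring⟩
  have hker : (pr (F := F)).ker ≤ P := fun x hx => by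
    rcases pr_eq_one.1 hx with rfl | rfl
    · exact one_mem _
    · exact hddP hm1Q hm1Q
  have hidx' : ¬ 2 ∣ (P.map pr).index := by
    rwa [Subgroup.index_map_eq P (QuotientGroup.mk'_surjective _) hker]
  let S₀ : Sylow 2 (PSp 2 F) := (hP.map pr).toSylow hidx'
  have hw := wreath_psp4 (F := F) h2
  have hsyl : P.map pr = hw.syl QQ := by
    ext y
    constructor
    · rintro ⟨x, hx, rfl⟩
      obtain ⟨a, ha, b, hb, rfl | rfl⟩ := hPmem hx
      · exact hw.pair_mem ha hb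
      · rw [map_mul]; exact mul_mem (hw.pair_mem ha hb) hw.w_mem
    · intro hy
      obtain ⟨a, ha, b, hb, rfl | rfl⟩ := hw.mem_syl hy
      · exact ⟨_, hddP ha hb, rfl⟩
      · exact ⟨_, mul_mem (hddP ha hb) hswP, map_mul _ _ _⟩
  obtain ⟨V, n, hdata⟩ := hw.exists_data h2 Q (hsyl ▸ hP.map pr) hii hjj hji hiQ hjQ hgen hbig hsmall
    (isConj_of_sq_neg_one h2) (pr g₀) n₀
    (by simp only [MonoidHom.comp_apply, ← map_inv, ← map_mul, hgt])
    (by simp only [MonoidHom.comp_apply, ← map_inv, ← map_mul, hgw])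
    (by simp only [MonoidHom.comp_apply, ← map_inv, ← map_mul, hgi])
    (by simp only [MonoidHom.comp_apply, ← map_inv, ← map_mul, hgj])
    hn3 hni hnj hnk
    (by rw [MonoidHom.comp_apply, hword]; simp only [map_mul, map_inv, MonoidHom.comp_apply])
  have hS₀ : (S₀ : Subgroup (PSp 2 F)) = hw.syl QQ := hsyl
  refine isSimple_of_data_sylow (by norm_num) S₀ (V := V) (n := n) (by rw [hS₀]; exact hdata) ?_ S
  rw [hS₀]
  intro h
  exact hw.t_ne_one h2 (Subgroup.mem_bot.1 (h ▸ hw.pair_mem (one_mem _) hm1Q))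

end Cfsg.Agent.H58.PSpFour
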