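import Cfsg.Agent.H58.PSpFour.Elements

/-!
Facts on a quaternion pair in a Sylow 2-subgroup of `SL₂(F)`.
-/
set_option autoImplicit false

namespace Cfsg.Agent.H58.PSpFour

open Matrix MatrixGroups Cfsg

variable {F : Type*} [Field F]

lemma neg_ne_self (h2 : (2 : F) ≠ 0) (a : SL(2, F)) : -a ≠ a := by
  intro h
  have he := congrArg (fun x : SL(2, F) => (x : Matrix (Fin 2) (Fin 2) F)) h
  simp at he
  have h0 : (a : Matrix (Fin 2) (Fin 2) F) = 0 := by
    ext s t
    have := congrFun (congrFun he s) t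
    simp at this
    have h3 : (2 : F) * (a : Matrix (Fin 2) (Fin 2) F) s t = 0 := by linear_combination -this
    simpa using (mul_eq_zero.1 h3).resolve_left h2
  have := a.det_coe
  rw [h0, Matrix.det_zero] at this
  exact zero_ne_one this

lemma eq_combination {i A : SL(2, F)} (hins : ¬ H69.IsScalar2 (i : Matrix (Fin 2) (Fin 2) F))
    (h : i * A = A * i) : ∃ a b : F, (A : Matrix (Fin 2) (Fin 2) F) =
      a • (1 : Matrix (Fin 2) (Fin 2) F) + b • (i : Matrix (Fin 2) (Fin 2) F) := by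
  refine H69.exists_eq_smul_add_smul_of_commute hins ?_
  rw [← Matrix.SpecialLinearGroup.coe_mul, h, Matrix.SpecialLinearGroup.coe_mul]

lemma not_isScalar2_of_sq (h2 : (2 : F) ≠ 0) {a : SL(2, F)} (ha : a * a = -1) :
    ¬ H69.IsScalar2 (a : Matrix (Fin 2) (Fin 2) F) := by
  rintro ⟨h01, h10, h11⟩
  have hsq : (a : Matrix (Fin 2) (Fin 2) F) * a = -1 := by
    simpa using congrArg (fun x : SL(2, F) => (x : Matrix (Fin 2) (Fin 2) F)) ha
  have htr := trace_eq_zero_of_sq a.2 hsq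
  rw [trace_fin_two, ← h11] at htr
  have h00 : (a : Matrix (Fin 2) (Fin 2) F) 0 0 = 0 :=
    (mul_eq_zero.1 (show (2 : F) * (a : Matrix (Fin 2) (Fin 2) F) 0 0 = 0 by linear_combination htr)).resolve_left h2
  have hd := a.det_coe
  rw [det_fin_two, h01, h00] at hd
  simp at hd

/-- An element commuting with a quaternion pair is `±1`. -/
theorem eq_one_or_neg_one_of_commute (h2 : (2 : F) ≠ 0) {i j : SL(2, F)} (hii : i * i = -1) (hjj : j * j = -1)
    (hji : j * i = -(i * j)) : ∀ a : SL(2, F), a * i = i * a → a * j = j * a → a = 1 ∨ a = -1 := by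
  have hins := not_isScalar2_of_sq h2 hii
  have hIJ := ij_coe hii hjj hji
  intro a hai haj
  obtain ⟨x, y, hxy⟩ := eq_combination hins hai.symm
  have h' : (a : Matrix (Fin 2) (Fin 2) F) * j = (j : Matrix (Fin 2) (Fin 2) F) * a := by
    rw [← Matrix.SpecialLinearGroup.coe_mul, haj, Matrix.SpecialLinearGroup.coe_mul]
  rw [hxy] at h'
  simp only [add_mul, mul_add, smul_mul, Matrix.mul_smul, one_mul, mul_one, hIJ.ji] at h'
  have hy : y = 0 := by
    have h3 : ((2 : F) * y) • ((i : Matrix (Fin 2) (Fin 2) F) * j) = 0 := by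
      rw [smul_neg, add_right_inj] at h'
      rw [mul_comm, mul_smul, two_smul, smul_add]
      nth_rw 1 [h']
      exact neg_add_cancel _
    have hne : ((i : Matrix (Fin 2) (Fin 2) F) * j) ≠ 0 := fun h0 => by
      have h0' := congrArg Matrix.det h0
      rw [det_mul, i.det_coe, j.det_coe, Matrix.det_zero, one_mul] at h0'
      exact one_ne_zero h0'
    exact (mul_eq_zero.1 ((smul_eq_zero.1 h3).resolve_right hne)).resolve_left h2
  subst hy
  rw [zero_smul, add_zero] at hxy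
  have hd := a.det_coe
  rw [hxy, det_smul, Fintype.card_fin, det_one, mul_one, sq] at hd
  rcases mul_self_eq_one_iff.1 hd with rfl | rfl
  · left; exact Subtype.ext (by simp [hxy])
  · right; exact Subtype.ext (by simp [hxy])

/-- An element normalizing a Sylow 2-subgroup and fixing the axis of `i` lies in it. -/
theorem mem_of_axis [Fintype F] (h2 : (2 : F) ≠ 0) (Q : Sylow 2 SL(2, F)) {i j : SL(2, F)}
    (hii : i * i = -1) (hjj : j * j = -1) (hji : j * i = -(i * j))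
    (hiQ : i ∈ (Q : Subgroup SL(2, F))) (hjQ : j ∈ (Q : Subgroup SL(2, F))) :
    ∀ A : SL(2, F), (∀ x ∈ (Q : Subgroup SL(2, F)), A * x * A⁻¹ ∈ (Q : Subgroup SL(2, F))) →
      (A * i * A⁻¹ = i ∨ A * i * A⁻¹ = -i) → A ∈ (Q : Subgroup SL(2, F)) := by
  have : Fact (Nat.Prime 2) := ⟨Nat.prime_two⟩
  have hins := not_isScalar2_of_sq h2 hii
  have hIJ := ij_coe hii hjj hji
  set QQ : Subgroup SL(2, F) := (Q : Subgroup SL(2, F)) with hQQ
  have hfix : ∀ A : SL(2, F), (∀ x ∈ QQ, A * x * A⁻¹ ∈ QQ) → i * A = A * i → A ∈ QQ := by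
    intro A hA hAi
    obtain ⟨x, y, hxy⟩ := eq_combination hins hAi
    have hxy' : (A : Matrix (Fin 2) (Fin 2) F) = qq (i : Matrix (Fin 2) (Fin 2) F) j x y 0 0 := by
      rw [hxy]; simp [qq]
    have hdet : x * x + y * y = 1 := by
      have hd := A.det_coe
      rw [hxy, H69.det_smul_add_smul, trace_eq_zero_of_sq i.2 hIJ.ii, i.det_coe] at hd
      linear_combination hd
    have haja : A * j * A = j := Subtype.ext (by
      rw [Matrix.SpecialLinearGroup.coe_mul, Matrix.SpecialLinearGroup.coe_mul, hxy']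
      have key : qq (i : Matrix (Fin 2) (Fin 2) F) j x y 0 0 * qq (i : Matrix (Fin 2) (Fin 2) F) j 0 0 1 0 *
          qq (i : Matrix (Fin 2) (Fin 2) F) j x y 0 0 = qq (i : Matrix (Fin 2) (Fin 2) F) j 0 0 1 0 := by
        simp only [qq_mul hIJ]
        congr 1 <;> first | ring1 | linear_combination hdet
      rwa [qq_j] at key)
    have hA2 : A * A ∈ QQ := by
      have h1 : A * j * A⁻¹ = A * A * j := by
        rw [mul_inv_eq_iff_eq_mul, mul_assoc (A * A), mul_assoc A A, ← mul_assoc A j, haja]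
      have := mul_mem (h1 ▸ hA j hjQ) (inv_mem hjQ)
      rwa [mul_inv_cancel_right] at this
    obtain ⟨k, hk⟩ := Q.isPGroup' ⟨_, hA2⟩
    have hkA : A ^ 2 ^ (k + 1) = 1 := by
      rw [pow_succ', pow_mul, sq]
      exact congrArg Subtype.val hk
    have hz : IsPGroup 2 (Subgroup.zpowers A) := by
      rintro ⟨z, hz⟩
      obtain ⟨l, rfl⟩ := Subgroup.mem_zpowers_iff.1 hz
      exact ⟨k + 1, Subtype.ext (by
        rw [Subgroup.coe_pow, Subgroup.coe_one, ← zpow_natCast, zpow_comm, zpow_natCast, hkA, _root_.one_zpow])⟩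
    have hAN : Subgroup.zpowers A ≤ Subgroup.normalizer (QQ : Set SL(2, F)) := by
      rw [Subgroup.zpowers_le]
      have hsurj : Function.Surjective (fun v : QQ => (⟨A * v * A⁻¹, hA v v.2⟩ : QQ)) :=
        Finite.injective_iff_surjective.1 fun a b hab =>
          Subtype.ext (mul_left_cancel (mul_right_cancel (congrArg Subtype.val hab)))
      rw [Subgroup.mem_normalizer_iff]
      refine fun z => ⟨hA z, fun hz => ?_⟩
      obtain ⟨w, hw⟩ := hsurj ⟨_, hz⟩
      exact mul_left_cancel (mul_right_cancel (congrArg Subtype.val hw)) ▸ w.2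
    have hmax := Q.is_maximal' (hz.to_sup_of_normal_right' Q.isPGroup' hAN) le_sup_right
    rw [hQQ, ← hmax]
    exact Subgroup.mem_sup_left (Subgroup.mem_zpowers A)
  intro A hA hAi
  rcases hAi with h | h
  · exact hfix A hA (mul_inv_eq_iff_eq_mul.1 h).symm
  · have hjA : j * A ∈ QQ := by
      refine hfix _ (fun x hx => ?_) ?_
      · have := mul_mem (mul_mem hjQ (hA x hx)) (inv_mem hjQ)
        convert this using 1; group
      · have h' := mul_inv_eq_iff_eq_mul.1 h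
        rw [mul_assoc, h', neg_mul, mul_neg, ← mul_assoc, ← mul_assoc, hji, neg_mul, neg_neg]
    simpa using mul_mem (inv_mem hjQ) hjA

/-- In the order eight case the normalizer of `Q` is `Q⟨n⟩`. -/
theorem exists_eq_mul_pow [Fintype F] (h2 : (2 : F) ≠ 0) (Q : Sylow 2 SL(2, F)) {i j n : SL(2, F)}
    (hii : i * i = -1) (hjj : j * j = -1) (hji : j * i = -(i * j))
    (hiQ : i ∈ (Q : Subgroup SL(2, F))) (hjQ : j ∈ (Q : Subgroup SL(2, F)))
    (h8 : ∀ x ∈ (Q : Subgroup SL(2, F)),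
      x = 1 ∨ x = -1 ∨ x = i ∨ x = -i ∨ x = j ∨ x = -j ∨ x = i * j ∨ x = -(i * j))
    (hn3 : n ^ 3 = 1) (hnj : n * j * n⁻¹ = i * j) (hnk : n * (i * j) * n⁻¹ = i)
    (hnQ : ∀ x ∈ (Q : Subgroup SL(2, F)), n * x * n⁻¹ ∈ (Q : Subgroup SL(2, F)))
    (A : SL(2, F)) (hA : ∀ x ∈ (Q : Subgroup SL(2, F)), A * x * A⁻¹ ∈ (Q : Subgroup SL(2, F))) :
    ∃ B ∈ (Q : Subgroup SL(2, F)), ∃ e : ℕ, A = B * n ^ e := by
  have haxis := mem_of_axis h2 Q hii hjj hji hiQ hjQ
  set QQ : Subgroup SL(2, F) := (Q : Subgroup SL(2, F)) with hQQ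
  have hpow : ∀ e : ℕ, ∀ x ∈ QQ, n ^ e * x * (n ^ e)⁻¹ ∈ QQ := by
    intro e
    induction e with
    | zero => intro x hx; simpa using hx
    | succ e ih =>
      intro x hx
      have := hnQ _ (ih x hx)
      convert this using 1
      rw [pow_succ']; group
  obtain ⟨e, he⟩ : ∃ e : ℕ, n ^ e * (A * i * A⁻¹) * (n ^ e)⁻¹ = i ∨
      n ^ e * (A * i * A⁻¹) * (n ^ e)⁻¹ = -i := by
    have hsq : A * i * A⁻¹ * (A * i * A⁻¹) = -1 := by
      rw [show A * i * A⁻¹ * (A * i * A⁻¹) = A * (i * i) * A⁻¹ by group, hii, mul_neg_one, neg_mul,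
        mul_inv_cancel]
    have hc : ∀ x : SL(2, F), n * -x * n⁻¹ = -(n * x * n⁻¹) := fun x => by rw [mul_neg, neg_mul]
    have hsqne : ¬ ((1 : SL(2, F)) = -1) := fun h => neg_ne_self h2 1 h.symm
    rcases h8 _ (hA i hiQ) with h | h | h | h | h | h | h | h
    · rw [h, one_mul] at hsq; exact absurd hsq hsqne
    · rw [h, neg_mul_neg, one_mul] at hsq; exact absurd hsq hsqne
    · exact ⟨0, Or.inl (by simp [h])⟩
    · exact ⟨0, Or.inr (by simp [h])⟩
    · refine ⟨2, Or.inl ?_⟩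
      rw [h, show n ^ 2 * j * (n ^ 2)⁻¹ = n * (n * j * n⁻¹) * n⁻¹ by rw [pow_two]; group, hnj, hnk]
    · refine ⟨2, Or.inr ?_⟩
      rw [h, show n ^ 2 * -j * (n ^ 2)⁻¹ = n * (n * -j * n⁻¹) * n⁻¹ by rw [pow_two]; group, hc, hnj, hc, hnk]
    · exact ⟨1, Or.inl (by rw [h, pow_one, hnk])⟩
    · exact ⟨1, Or.inr (by rw [h, pow_one, hc, hnk])⟩
  have hB : n ^ e * A ∈ QQ := by
    refine haxis _ (fun x hx => ?_) ?_
    · have := hpow e _ (hA x hx); convert this using 1; group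
    · rwa [show n ^ e * A * i * (n ^ e * A)⁻¹ = n ^ e * (A * i * A⁻¹) * (n ^ e)⁻¹ by group]
  refine ⟨A * (n ^ (2 * e))⁻¹, ?_, 2 * e, by rw [inv_mul_cancel_right]⟩
  have h3e : n ^ (3 * e) = 1 := by rw [pow_mul, hn3, one_pow]
  have hinv : (n ^ e)⁻¹ = n ^ (2 * e) := inv_eq_of_mul_eq_one_right (by
    rw [← pow_add, show e + 2 * e = 3 * e by ring, h3e])
  have := hpow (2 * e) _ hB
  rw [← hinv] at this
  rw [← hinv, inv_inv]
  convert this using 1; group

end Cfsg.Agent.H58.PSpFour
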