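import Cfsg.Agent.H58.PSpFour.Criterion
import Cfsg.Agent.H58.PSpFour.SL
import Cfsg.Agent.H24.PGroupBasic
import Cfsg.Agent.H58.PSLThree.ExtendInvolution

/-!
The criterion data for a group containing a central product `SL₂ ∘ SL₂` extended by the swap.
-/
set_option autoImplicit false

namespace Cfsg.Agent.H58.PSpFour

open Matrix MatrixGroups Cfsg
open Cfsg.Agent.H58.PSLThree (extendInvol mem_extendInvol le_extendInvol invol_mem_extendInvol)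

variable {F : Type*} [Field F] {G : Type*} [Group G]

/-- `δ : SL₂ × SL₂ → G` with kernel `±(1,1)` and an involution `w` swapping the factors. -/
structure Wreath (δ : SL(2, F) × SL(2, F) →* G) (w : G) : Prop where
  ww : w * w = 1
  wdw : ∀ a b, w * δ (a, b) * w = δ (b, a)
  ker : ∀ x, δ x = 1 ↔ x = 1 ∨ x = (-1, -1)
  ne : ∀ x, δ x ≠ w
  cent : ∀ g, g * δ (1, -1) * g⁻¹ = δ (1, -1) → ∃ A B, g = δ (A, B) ∨ g = δ (A, B) * w

variable {δ : SL(2, F) × SL(2, F) →* G} {w : G}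

namespace Wreath

lemma winv (hw : Wreath δ w) : w⁻¹ = w := inv_eq_of_mul_eq_one_right hw.ww

lemma w_mul (hw : Wreath δ w) (a b : SL(2, F)) : w * δ (a, b) = δ (b, a) * w := by
  rw [← hw.wdw a b, mul_assoc _ w w, hw.ww, mul_one]

lemma eq_iff (hw : Wreath δ w) {a b c d : SL(2, F)} :
    δ (a, b) = δ (c, d) ↔ (a = c ∧ b = d) ∨ (a = -c ∧ b = -d) := by
  rw [← mul_inv_eq_one, ← map_inv, ← map_mul, hw.ker, mul_inv_eq_one, mul_inv_eq_iff_eq_mul]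
  simp [Prod.ext_iff]

lemma neg_same (hw : Wreath δ w) (a b : SL(2, F)) : δ (-a, -b) = δ (a, b) :=
  hw.eq_iff.2 (Or.inr ⟨rfl, rfl⟩)

lemma conj_pair (_hw : Wreath δ w) (a b c d : SL(2, F)) :
    δ (a, b) * δ (c, d) * (δ (a, b))⁻¹ = δ (a * c * a⁻¹, b * d * b⁻¹) := by
  rw [← map_inv, ← map_mul, ← map_mul]; rfl

lemma conj_w (hw : Wreath δ w) (a b : SL(2, F)) :
    δ (a, b) * w * (δ (a, b))⁻¹ = δ (a * b⁻¹, b * a⁻¹) * w := by
  rw [← map_inv, Prod.inv_mk, mul_assoc, hw.w_mul, ← mul_assoc, ← map_mul]; rfl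

/-- The Sylow subgroup `(Q ∘ Q)⟨w⟩`. -/
def syl (hw : Wreath δ w) (QQ : Subgroup SL(2, F)) : Subgroup G :=
  extendInvol ((QQ.prod QQ).map δ) w hw.ww (by
    rintro _ ⟨⟨a, b⟩, ⟨ha, hb⟩, rfl⟩
    exact ⟨(b, a), ⟨hb, ha⟩, (hw.wdw a b).symm⟩)

variable {QQ : Subgroup SL(2, F)}

lemma mem_syl (hw : Wreath δ w) {x : G} (hx : x ∈ hw.syl QQ) :
    ∃ a ∈ QQ, ∃ b ∈ QQ, x = δ (a, b) ∨ x = δ (a, b) * w := by
  rcases mem_extendInvol.1 hx with ⟨⟨a, b⟩, ⟨ha, hb⟩, he⟩ | ⟨⟨a, b⟩, ⟨ha, hb⟩, he⟩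
  · exact ⟨a, ha, b, hb, Or.inl he.symm⟩
  · exact ⟨a, ha, b, hb, Or.inr (by rw [he, mul_assoc, hw.ww, mul_one])⟩

lemma pair_mem (hw : Wreath δ w) {a b : SL(2, F)} (ha : a ∈ QQ) (hb : b ∈ QQ) : δ (a, b) ∈ hw.syl QQ :=
  le_extendInvol ⟨(a, b), ⟨ha, hb⟩, rfl⟩

lemma w_mem (hw : Wreath δ w) : w ∈ hw.syl QQ := invol_mem_extendInvol

lemma of_pair_mem (hw : Wreath δ w) (hm : (-1 : SL(2, F)) ∈ QQ) {a b : SL(2, F)}
    (h : δ (a, b) ∈ hw.syl QQ) : a ∈ QQ ∧ b ∈ QQ := by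
  obtain ⟨c, hc, d, hd, he | he⟩ := hw.mem_syl h
  · rcases hw.eq_iff.1 he with ⟨rfl, rfl⟩ | ⟨rfl, rfl⟩
    · exact ⟨hc, hd⟩
    · exact ⟨neg_one_mul c ▸ mul_mem hm hc, neg_one_mul d ▸ mul_mem hm hd⟩
  · exfalso
    apply hw.ne ((c, d)⁻¹ * (a, b))
    rw [map_mul, map_inv, he, inv_mul_cancel_left]

lemma t_ne_one (hw : Wreath δ w) (h2 : (2 : F) ≠ 0) : δ (1, -1) ≠ 1 := fun h => by
  rcases (hw.ker _).1 h with h | h
  · exact neg_ne_self h2 (1 : SL(2, F)) (Prod.ext_iff.1 h).2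
  · exact neg_ne_self h2 (1 : SL(2, F)) (Prod.ext_iff.1 h).1.symm

lemma t_comm (hw : Wreath δ w) {y : G} (hy : y ∈ hw.syl QQ) : δ (1, -1) * y = y * δ (1, -1) := by
  obtain ⟨a, -, b, -, rfl | rfl⟩ := hw.mem_syl hy
  · rw [← map_mul, ← map_mul]; simp
  · rw [mul_assoc (δ (a, b)), hw.w_mul, ← mul_assoc, ← mul_assoc, ← map_mul, ← map_mul]
    congr 1
    rw [Prod.mk_mul_mk, Prod.mk_mul_mk, hw.eq_iff]
    right; simp

variable (h2 : (2 : F) ≠ 0) {i j : SL(2, F)}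

include h2 in
lemma central (hw : Wreath δ w) (hii : i * i = -1) (hjj : j * j = -1) (hji : j * i = -(i * j))
    (hiQ : i ∈ QQ) (hjQ : j ∈ QQ) :
    ∀ x ∈ hw.syl QQ, (∀ y ∈ hw.syl QQ, x * y = y * x) → x = 1 ∨ x = δ (1, -1) := by
  have hscal := eq_one_or_neg_one_of_commute h2 hii hjj hji
  intro x hx hxc
  obtain ⟨a, -, b, -, rfl | rfl⟩ := hw.mem_syl hx
  · have hcomm : ∀ c ∈ QQ, a * c = c * a ∧ b * c = c * b := by
      intro c hc
      constructor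
      · have h := hxc _ (hw.pair_mem hc (one_mem _))
        rw [← map_mul, ← map_mul, Prod.mk_mul_mk, Prod.mk_mul_mk, hw.eq_iff, mul_one, one_mul] at h
        rcases h with h | h
        · exact h.1
        · exact absurd h.2.symm (neg_ne_self h2 b)
      · have h := hxc _ (hw.pair_mem (one_mem _) hc)
        rw [← map_mul, ← map_mul, Prod.mk_mul_mk, Prod.mk_mul_mk, hw.eq_iff, mul_one, one_mul] at h
        rcases h with h | h
        · exact h.2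
        · exact absurd h.1.symm (neg_ne_self h2 a)
    rcases hscal a (hcomm i hiQ).1 (hcomm j hjQ).1 with rfl | rfl <;>
      rcases hscal b (hcomm i hiQ).2 (hcomm j hjQ).2 with rfl | rfl
    · left; exact map_one δ
    · right; rfl
    · right; rw [hw.eq_iff]; right; simp
    · left; exact (hw.ker _).2 (Or.inr rfl)
  · exfalso
    have h := hxc _ (hw.pair_mem hiQ (one_mem _))
    rw [mul_assoc, hw.w_mul, ← mul_assoc, ← mul_assoc, ← map_mul, ← map_mul, Prod.mk_mul_mk,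
      Prod.mk_mul_mk] at h
    have h' := hw.eq_iff.1 (mul_right_cancel h)
    simp only [mul_one, one_mul] at h'
    rcases h' with ⟨h', -⟩ | ⟨h', -⟩
    · have hi1 : i = 1 := right_eq_mul.1 h'
      rw [hi1, one_mul] at hii
      exact neg_ne_self h2 (1 : SL(2, F)) hii.symm
    · rw [← neg_mul] at h'
      have hi1 : (-i : SL(2, F)) = 1 := right_eq_mul.1 h'
      have : i = -1 := by rw [← hi1, neg_neg]
      rw [this, neg_one_mul, neg_neg] at hii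
      exact neg_ne_self h2 (1 : SL(2, F)) hii.symm

include h2 in
lemma top [Finite G] (hw : Wreath δ w) (hii : i * i = -1) (hjj : j * j = -1) (hji : j * i = -(i * j))
    (hiQ : i ∈ QQ) (hjQ : j ∈ QQ) (g : G) (hg : ∀ x ∈ hw.syl QQ, g * x * g⁻¹ ∈ hw.syl QQ) :
    ∃ A : SL(2, F), (∀ x ∈ QQ, A * x * A⁻¹ ∈ QQ) ∧ ∃ s ∈ hw.syl QQ, ∃ u ∈ hw.syl QQ,
      g = s * δ (A, A) * u := by
  have hm : (-1 : SL(2, F)) ∈ QQ := hii ▸ mul_mem hiQ hiQ
  have hsurj : Function.Surjective (fun v : hw.syl QQ => (⟨g * v * g⁻¹, hg v v.2⟩ : hw.syl QQ)) :=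
    Finite.injective_iff_surjective.1 fun a b hab =>
      Subtype.ext (mul_left_cancel (mul_right_cancel (congrArg Subtype.val hab)))
  have hgt : g * δ (1, -1) * g⁻¹ = δ (1, -1) := by
    refine (hw.central h2 hii hjj hji hiQ hjQ _ (hg _ (hw.pair_mem (one_mem _) hm)) fun y hy => ?_).resolve_left
      fun h => hw.t_ne_one h2 (conj_eq_one_iff.1 h)
    obtain ⟨⟨x, hx⟩, hxy⟩ := hsurj ⟨y, hy⟩
    have hxy' : g * x * g⁻¹ = y := congrArg Subtype.val hxy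
    rw [← hxy']
    calc g * δ (1, -1) * g⁻¹ * (g * x * g⁻¹) = g * (δ (1, -1) * x) * g⁻¹ := by group
      _ = g * (x * δ (1, -1)) * g⁻¹ := by rw [hw.t_comm hx]
      _ = _ := by group
  have hmain : ∀ g, (∀ x ∈ hw.syl QQ, g * x * g⁻¹ ∈ hw.syl QQ) → (∃ A B, g = δ (A, B)) →
      ∃ A : SL(2, F), (∀ x ∈ QQ, A * x * A⁻¹ ∈ QQ) ∧ ∃ s ∈ hw.syl QQ, g = s * δ (A, A) := by
    rintro g hg ⟨A, B, rfl⟩
    refine ⟨A, fun x hx => ?_, δ (1, B * A⁻¹), hw.pair_mem (one_mem _) ?_, ?_⟩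
    · have h := hg _ (hw.pair_mem hx (one_mem _))
      rw [hw.conj_pair] at h
      exact (hw.of_pair_mem hm h).1
    · have h := mul_mem (hg _ hw.w_mem) (hw.w_mem (QQ := QQ))
      rw [hw.conj_w, mul_assoc, hw.ww, mul_one] at h
      exact (hw.of_pair_mem hm h).2
    · rw [← map_mul]; simp
  obtain ⟨A, B, rfl | rfl⟩ := hw.cent g hgt
  · obtain ⟨C, hC, s, hs, he⟩ := hmain _ hg ⟨A, B, rfl⟩
    exact ⟨C, hC, s, hs, 1, one_mem _, by rw [mul_one]; exact he⟩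
  · have hg' : ∀ x ∈ hw.syl QQ, δ (A, B) * x * (δ (A, B))⁻¹ ∈ hw.syl QQ := by
      intro x hx
      have := hg _ (mul_mem (mul_mem hw.w_mem hx) hw.w_mem)
      convert this using 1
      rw [_root_.mul_inv_rev, hw.winv]
      simp only [mul_assoc]
      rw [← mul_assoc w w, hw.ww, one_mul, ← mul_assoc w w, hw.ww, one_mul]
    obtain ⟨C, hC, s, hs, he⟩ := hmain _ hg' ⟨A, B, rfl⟩
    exact ⟨C, hC, s, hs, w, hw.w_mem, by rw [← he]⟩

include h2 in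
lemma closed [Finite G] (hw : Wreath δ w) (hP : IsPGroup 2 (hw.syl QQ)) (hii : i * i = -1)
    (hjj : j * j = -1) (hji : j * i = -(i * j)) (hiQ : i ∈ QQ) (hjQ : j ∈ QQ)
    (hgen : ∀ R : Subgroup SL(2, F), (∀ a ∈ QQ, ∀ b ∈ QQ,
      a * a = -1 → b * b = -1 → a * b⁻¹ ∈ R) → QQ ≤ R)
    (hconj : ∀ x y : SL(2, F), x * x = -1 → y * y = -1 → IsConj x y)
    (g₀ : G) (hgt : g₀ * δ (1, -1) * g₀⁻¹ = w)
    (T : Subgroup G) (hT : T ≤ hw.syl QQ) (hne : T ≠ ⊥)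
    (hcl : ∀ x ∈ T, ∀ g, g * x * g⁻¹ ∈ hw.syl QQ → g * x * g⁻¹ ∈ T) : T = hw.syl QQ := by
  have : Fact (Nat.Prime 2) := ⟨Nat.prime_two⟩
  have htT : δ (1, -1) ∈ T := by
    have hnorm : (T.subgroupOf (hw.syl QQ)).Normal := ⟨fun x hx g =>
      hcl _ hx g (mul_mem (mul_mem g.2 x.2) (inv_mem g.2))⟩
    have hne' : T.subgroupOf (hw.syl QQ) ≠ ⊥ := fun h => hne
      (by rw [← Subgroup.map_subgroupOf_eq_of_le hT, h, Subgroup.map_bot])
    have hmeet := H24.inf_center_ne_bot hP hne'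
    obtain ⟨⟨x, hx⟩, ⟨hxT, hxc⟩, hx1⟩ := (Subgroup.bot_or_exists_ne_one _).resolve_left hmeet
    rcases hw.central h2 hii hjj hji hiQ hjQ x hx fun y hy =>
      congrArg Subtype.val (Subgroup.mem_center_iff.1 hxc ⟨y, hy⟩).symm with h | h
    · exact absurd (Subtype.ext h) hx1
    · exact h ▸ hxT
  have hwT : w ∈ T := by
    have h := hcl _ htT g₀
    rw [hgt] at h
    exact h hw.w_mem
  have hinvmem : ∀ a ∈ QQ, δ (a, a⁻¹) ∈ T := by
    intro a ha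
    have h := hcl _ hwT (δ (a, 1))
    rw [hw.conj_w, inv_one, mul_one, one_mul] at h
    have := T.mul_mem (h (mul_mem (hw.pair_mem ha (inv_mem ha)) hw.w_mem)) hwT
    rwa [mul_assoc, hw.ww, mul_one] at this
  have hsqT : ∀ a ∈ QQ, ∀ b ∈ QQ, a * a = -1 → b * b = -1 → δ (a, b) ∈ T := by
    intro a ha b hb haa hbb
    have hiinv : i⁻¹ * i⁻¹ = -1 := by
      rw [← _root_.mul_inv_rev, hii]
      exact inv_eq_of_mul_eq_one_right (by simp)
    obtain ⟨x, hx⟩ := isConj_iff.1 (hconj i a hii haa)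
    obtain ⟨y, hy⟩ := isConj_iff.1 (hconj i⁻¹ b hiinv hbb)
    have h := hcl _ (hinvmem i hiQ) (δ (x, y))
    rw [hw.conj_pair, hx, hy] at h
    exact h (hw.pair_mem ha hb)
  have hleft : QQ ≤ T.comap (δ.comp (MonoidHom.inl _ _)) := by
    refine hgen _ fun a ha b hb haa hbb => ?_
    have h := T.mul_mem (hsqT a ha i hiQ haa hii) (T.inv_mem (hsqT b hb i hiQ hbb hii))
    rw [← map_inv, ← map_mul, Prod.inv_mk, Prod.mk_mul_mk, mul_inv_cancel] at h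
    exact h
  have hd : ∀ a ∈ QQ, ∀ b ∈ QQ, δ (a, b) ∈ T := by
    intro a ha b hb
    have h1 : δ (a, 1) ∈ T := hleft ha
    have h2' : δ (b, 1) ∈ T := hleft hb
    have := T.mul_mem h1 (T.mul_mem (T.mul_mem hwT h2') hwT)
    rwa [hw.wdw, ← map_mul, Prod.mk_mul_mk, mul_one, one_mul] at this
  refine le_antisymm hT fun x hx => ?_
  obtain ⟨a, ha, b, hb, rfl | rfl⟩ := hw.mem_syl hx
  · exact hd a ha b hb
  · exact T.mul_mem (hd a ha b hb) hwT

include h2 in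
/-- The criterion data exists. -/
theorem exists_data [Fintype F] [Finite G] (hw : Wreath δ w) (Q : Sylow 2 SL(2, F))
    (hP : IsPGroup 2 (hw.syl (Q : Subgroup SL(2, F))))
    (hii : i * i = -1) (hjj : j * j = -1) (hji : j * i = -(i * j))
    (hiQ : i ∈ (Q : Subgroup SL(2, F))) (hjQ : j ∈ (Q : Subgroup SL(2, F)))
    (hgen : ∀ R : Subgroup SL(2, F), (∀ a ∈ (Q : Subgroup SL(2, F)), ∀ b ∈ (Q : Subgroup SL(2, F)),
      a * a = -1 → b * b = -1 → a * b⁻¹ ∈ R) → (Q : Subgroup SL(2, F)) ≤ R)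
    (hbig : 8 < Nat.card (Q : Subgroup SL(2, F)) → ∀ A : SL(2, F),
      (∀ x ∈ (Q : Subgroup SL(2, F)), A * x * A⁻¹ ∈ (Q : Subgroup SL(2, F))) →
        A * i * A⁻¹ = i ∨ A * i * A⁻¹ = -i)
    (hsmall : ¬ 8 < Nat.card (Q : Subgroup SL(2, F)) → ∀ x ∈ (Q : Subgroup SL(2, F)),
        x = 1 ∨ x = -1 ∨ x = i ∨ x = -i ∨ x = j ∨ x = -j ∨ x = i * j ∨ x = -(i * j))
    (hconj : ∀ x y : SL(2, F), x * x = -1 → y * y = -1 → IsConj x y)
    (g₀ : G) (n₀ : SL(2, F)) (hgt : g₀ * δ (1, -1) * g₀⁻¹ = w) (hgw : g₀ * w * g₀⁻¹ = δ (1, -1))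
    (hgi : g₀ * δ (i, i) * g₀⁻¹ = δ (i, i))
    (hgj : g₀ * δ (j, j) * g₀⁻¹ = δ (-(i * j), -(i * j)))
    (hn3 : n₀ ^ 3 = 1) (hni : n₀ * i * n₀⁻¹ = j) (hnj : n₀ * j * n₀⁻¹ = i * j)
    (hnk : n₀ * (i * j) * n₀⁻¹ = i)
    (hword : δ (n₀, n₀) = δ (i, 1) * w * (g₀ * δ (j, 1) * g₀⁻¹) * δ (j, 1) * (g₀ * δ (i, 1) * g₀⁻¹)) :
    ∃ (V : Subgroup G) (n : G), Data (hw.syl (Q : Subgroup SL(2, F))) V n := by
  set QQ : Subgroup SL(2, F) := (Q : Subgroup SL(2, F)) with hQQ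
  have hclosed : ∀ T : Subgroup G, T ≤ hw.syl QQ → T ≠ ⊥ →
      (∀ x ∈ T, ∀ g, g * x * g⁻¹ ∈ hw.syl QQ → g * x * g⁻¹ ∈ T) → T = hw.syl QQ :=
    hw.closed h2 hP hii hjj hji hiQ hjQ hgen hconj g₀ hgt
  by_cases h8 : 8 < Nat.card QQ
  · refine ⟨hw.syl QQ, 1, le_rfl, fun s hs v hv => mul_mem (mul_mem hs hv) (inv_mem hs),
      fun v hv => by simpa using hv, fun s hs => by simpa using hs, one_pow _, one_mem _,
      fun h => absurd rfl h, fun g hg => ?_, hclosed⟩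
    obtain ⟨A, hA, s, hs, u, hu, rfl⟩ := hw.top h2 hii hjj hji hiQ hjQ g hg
    have hAQ := mem_of_axis h2 Q hii hjj hji hiQ hjQ A hA (hbig h8 A hA)
    exact ⟨_, mul_mem (mul_mem hs (hw.pair_mem hAQ hAQ)) hu, 0, by simp⟩
  have h8' := hsmall h8
  have hm : (-1 : SL(2, F)) ∈ QQ := hii ▸ mul_mem hiQ hiQ
  set n : G := δ (n₀, n₀) with hndef
  let V : Subgroup G := Subgroup.closure {δ (i, i), δ (j, j), δ (1, -1), w}
  have hVi : δ (i, i) ∈ V := Subgroup.subset_closure (by simp)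
  have hVj : δ (j, j) ∈ V := Subgroup.subset_closure (by simp)
  have hVt : δ (1, -1) ∈ V := Subgroup.subset_closure (by simp)
  have hVw : w ∈ V := Subgroup.subset_closure (by simp)
  have hVS : V ≤ hw.syl QQ := by
    rw [Subgroup.closure_le]
    rintro x (rfl | rfl | rfl | rfl)
    · exact hw.pair_mem hiQ hiQ
    · exact hw.pair_mem hjQ hjQ
    · exact hw.pair_mem (one_mem _) hm
    · exact hw.w_mem
  have hVnorm : ∀ g : G, g * δ (i, i) * g⁻¹ ∈ V → g * δ (j, j) * g⁻¹ ∈ V →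
      g * δ (1, -1) * g⁻¹ ∈ V → g * w * g⁻¹ ∈ V → g ∈ Subgroup.normalizer (V : Set G) := by
    intro g h1 h2' h3 h4
    have hle : V.map (MulAut.conj g).toMonoidHom ≤ V := by
      rw [MonoidHom.map_closure, Subgroup.closure_le]
      rintro _ ⟨x, (rfl | rfl | rfl | rfl), rfl⟩
      · exact h1
      · exact h2'
      · exact h3
      · exact h4
    have hg : ∀ v ∈ V, g * v * g⁻¹ ∈ V := fun v hv => hle ⟨v, hv, rfl⟩
    have hsurj : Function.Surjective (fun v : V => (⟨g * v * g⁻¹, hg v v.2⟩ : V)) :=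
      Finite.injective_iff_surjective.1 fun a b hab =>
        Subtype.ext (mul_left_cancel (mul_right_cancel (congrArg Subtype.val hab)))
    refine Subgroup.mem_normalizer_iff.2 fun z => ⟨hg z, fun hz => ?_⟩
    obtain ⟨u, hu⟩ := hsurj ⟨_, hz⟩
    exact mul_left_cancel (mul_right_cancel (congrArg Subtype.val hu)) ▸ u.2
  have hVk : δ (i * j, i * j) ∈ V := by
    have := mul_mem hVi hVj
    rwa [← map_mul] at this
  have hQgen : ∀ R : Subgroup SL(2, F), i ∈ R → j ∈ R → QQ ≤ R := by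
    intro R hiR hjR x hx
    have hm1 : (-1 : SL(2, F)) ∈ R := hii ▸ R.mul_mem hiR hiR
    have hn : ∀ y ∈ R, -y ∈ R := fun y hy => neg_one_mul y ▸ R.mul_mem hm1 hy
    rcases h8' x hx with rfl | rfl | rfl | rfl | rfl | rfl | rfl | rfl
    · exact R.one_mem
    · exact hm1
    · exact hiR
    · exact hn _ hiR
    · exact hjR
    · exact hn _ hjR
    · exact R.mul_mem hiR hjR
    · exact hn _ (R.mul_mem hiR hjR)
  have hnt : n * δ (1, -1) * n⁻¹ = δ (1, -1) := by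
    rw [hndef, hw.conj_pair]; simp
  have hnw : n * w * n⁻¹ = w := by
    rw [hndef, hw.conj_w, mul_inv_cancel, show δ ((1 : SL(2, F)), (1 : SL(2, F))) = 1 from map_one δ, one_mul]
  have hnN : n ∈ Subgroup.normalizer (V : Set G) := by
    refine hVnorm n ?_ ?_ (hnt.symm ▸ hVt) (hnw.symm ▸ hVw)
    · rw [hndef, hw.conj_pair, hni]; exact hVj
    · rw [hndef, hw.conj_pair, hnj]; exact hVk
  have hgN : g₀ ∈ Subgroup.normalizer (V : Set G) := by
    refine hVnorm g₀ (hgi.symm ▸ hVi) ?_ (hgt.symm ▸ hVw) (hgw.symm ▸ hVt)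
    rw [hgj, hw.neg_same]; exact hVk
  have hinvv : ∀ x : SL(2, F), x * x = -1 → x⁻¹ = -x := fun x hx =>
    inv_eq_of_mul_eq_one_right (by rw [mul_neg, hx, neg_neg])
  have hone : ∀ x y, x * x = -1 → δ (x, x) ∈ V → δ (y, y) ∈ V → x * y * x⁻¹ = -y →
      δ (x, 1) * δ (y, y) * (δ (x, 1))⁻¹ ∈ V ∧ δ (x, 1) * w * (δ (x, 1))⁻¹ ∈ V := by
    intro x y hxx hx hy hxy
    have hsame : ∀ z, δ (z, z) ∈ V → δ (z, -z) ∈ V := fun z hz => by
      have := mul_mem hz hVt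
      rw [← map_mul] at this
      simpa using this
    constructor
    · rw [hw.conj_pair, hxy, ← hw.neg_same]
      simpa using hsame y hy
    · rw [hw.conj_w, inv_one, mul_one, one_mul, hinvv x hxx]
      exact mul_mem (hsame x hx) hVw
  have hij : i * j * i⁻¹ = -j := by
    rw [hinvv i hii, mul_neg, mul_assoc, hji, mul_neg, neg_neg, ← mul_assoc, hii, neg_one_mul]
  have hji' : j * i * j⁻¹ = -i := by
    rw [hji, neg_mul, mul_inv_cancel_right]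
  have htfix : ∀ x : SL(2, F), δ (x, 1) * δ (1, -1) * (δ (x, 1))⁻¹ = δ (1, -1) := by
    intro x; rw [hw.conj_pair]; simp
  have hl : QQ ≤ (Subgroup.normalizer (V : Set G)).comap (δ.comp (MonoidHom.inl _ _)) := by
    refine hQgen _ ?_ ?_
    · obtain ⟨h1, h2'⟩ := hone i j hii hVi hVj hij
      refine hVnorm _ ?_ h1 ((htfix i).symm ▸ hVt) h2'
      show δ (i, 1) * δ (i, i) * (δ (i, 1))⁻¹ ∈ V
      rw [hw.conj_pair, mul_inv_cancel_right, one_mul, inv_one, mul_one]; exact hVi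
    · obtain ⟨h1, h2'⟩ := hone j i hjj hVj hVi hji'
      refine hVnorm _ h1 ?_ ((htfix j).symm ▸ hVt) h2'
      show δ (j, 1) * δ (j, j) * (δ (j, 1))⁻¹ ∈ V
      rw [hw.conj_pair, mul_inv_cancel_right, one_mul, inv_one, mul_one]; exact hVj
  have hSN : hw.syl QQ ≤ Subgroup.normalizer (V : Set G) := by
    have hwN : w ∈ Subgroup.normalizer (V : Set G) := Subgroup.le_normalizer hVw
    intro x hx
    obtain ⟨a, ha, b, hb, hx'⟩ := hw.mem_syl hx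
    have ha' : δ (a, 1) ∈ Subgroup.normalizer (V : Set G) := hl ha
    have hb' : δ (b, 1) ∈ Subgroup.normalizer (V : Set G) := hl hb
    have hab := mul_mem ha' (mul_mem (mul_mem hwN hb') hwN)
    rw [hw.wdw, ← map_mul, Prod.mk_mul_mk, mul_one, one_mul] at hab
    rcases hx' with rfl | rfl
    · exact hab
    · exact mul_mem hab hwN
  have hnQ : ∀ x ∈ QQ, n₀ * x * n₀⁻¹ ∈ QQ := by
    have h : QQ ≤ QQ.comap (MulAut.conj n₀).toMonoidHom :=
      hQgen _ (by show n₀ * i * n₀⁻¹ ∈ QQ; rw [hni]; exact hjQ)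
        (by show n₀ * j * n₀⁻¹ ∈ QQ; rw [hnj]; exact mul_mem hiQ hjQ)
    exact fun x hx => h hx
  have hnS : ∀ s ∈ hw.syl QQ, n * s * n⁻¹ ∈ hw.syl QQ := by
    intro s hs
    obtain ⟨a, ha, b, hb, rfl | rfl⟩ := hw.mem_syl hs
    · rw [hndef, hw.conj_pair]; exact hw.pair_mem (hnQ a ha) (hnQ b hb)
    · rw [show n * (δ (a, b) * w) * n⁻¹ = (n * δ (a, b) * n⁻¹) * (n * w * n⁻¹) by group, hnw, hndef,
        hw.conj_pair]
      exact mul_mem (hw.pair_mem (hnQ a ha) (hnQ b hb)) hw.w_mem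
  have hNmap : ∀ {g}, g ∈ Subgroup.normalizer (V : Set G) → ∀ v ∈ V, g * v * g⁻¹ ∈ V :=
    fun hg v hv => (Subgroup.mem_normalizer_iff.1 hg v).1 hv
  refine ⟨V, n, hVS, fun s hs => hNmap (hSN hs), hNmap hnN, hnS, ?_, ?_, ?_, ?_, hclosed⟩
  · rw [hndef, ← map_pow, Prod.pow_mk, hn3]; exact map_one δ
  · have hS' : ∀ s ∈ hw.syl QQ, s ∈ Subgroup.closure
        {y | ∃ g s, (∀ v ∈ V, g * v * g⁻¹ ∈ V) ∧ s ∈ hw.syl QQ ∧ y = g * s * g⁻¹} :=
      fun s hs => Subgroup.subset_closure ⟨1, s, fun v hv => by simpa using hv, hs, by simp⟩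
    have hgS : ∀ s ∈ hw.syl QQ, g₀ * s * g₀⁻¹ ∈ Subgroup.closure
        {y | ∃ g s, (∀ v ∈ V, g * v * g⁻¹ ∈ V) ∧ s ∈ hw.syl QQ ∧ y = g * s * g⁻¹} :=
      fun s hs => Subgroup.subset_closure ⟨g₀, s, hNmap hgN, hs, rfl⟩
    rw [hword]
    have hi1 : δ (i, 1) ∈ hw.syl QQ := hw.pair_mem hiQ (one_mem _)
    have hj1 : δ (j, 1) ∈ hw.syl QQ := hw.pair_mem hjQ (one_mem _)
    exact mul_mem (mul_mem (mul_mem (mul_mem (hS' _ hi1) (hS' _ hw.w_mem)) (hgS _ hj1)) (hS' _ hj1))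
      (hgS _ hi1)
  · intro _
    refine ⟨_, hVi, fun h => ?_⟩
    rw [hndef, ← map_mul, ← map_mul, Prod.mk_mul_mk, Prod.mk_mul_mk, hw.eq_iff] at h
    have hn' : n₀ * i = j * n₀ := mul_inv_eq_iff_eq_mul.1 hni
    rw [hn'] at h
    rcases h with h | h
    · have hji0 : j = i := mul_right_cancel h.1
      rw [hji0] at hji
      exact neg_ne_self h2 _ hji.symm
    · have h' := h.1
      rw [← neg_mul] at h'
      have hji0 : j = -i := mul_right_cancel h'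
      rw [hji0, neg_mul, mul_neg, neg_neg] at hji
      exact neg_ne_self h2 _ hji
  · intro g hg
    obtain ⟨A, hA, s, hs, u, hu, rfl⟩ := hw.top h2 hii hjj hji hiQ hjQ g hg
    obtain ⟨B, hBQ, e, rfl⟩ := exists_eq_mul_pow h2 Q hii hjj hji hiQ hjQ h8' hn3 hnj hnk hnQ A hA
    have hwn : n ^ e * u * (n ^ e)⁻¹ ∈ hw.syl QQ := by
      clear hg hA
      induction e with
      | zero => simpa using hu
      | succ l ih =>
        have := hnS _ ih
        convert this using 1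
        rw [pow_succ']; group
    refine ⟨s * δ (B, B) * (n ^ e * u * (n ^ e)⁻¹),
      mul_mem (mul_mem hs (hw.pair_mem hBQ hBQ)) hwn, e, ?_⟩
    rw [show δ (B * n₀ ^ e, B * n₀ ^ e) = δ (B, B) * n ^ e by
      rw [hndef, ← map_pow, ← map_mul]; rfl]
    group

end Wreath

end Cfsg.Agent.H58.PSpFour
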