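import Cfsg.Agent.H6.SylowTwo
import Cfsg.Agent.H69.SL2Classes

/-!
Quaternion pairs in `SL₂(F)` and in its Sylow 2-subgroups.
-/
set_option autoImplicit false

namespace Cfsg.Agent.H58.PSpFour

open Matrix MatrixGroups

variable {F : Type*} [Field F]

/-- `a + b i + c j + d ij`. -/
def qq (i j : (Matrix (Fin 2) (Fin 2) F)) (a b c d : F) : (Matrix (Fin 2) (Fin 2) F) := a • (1 : (Matrix (Fin 2) (Fin 2) F)) + b • i + c • j + d • (i * j)

/-- The defining relations of a quaternion pair. -/
structure IJ (i j : (Matrix (Fin 2) (Fin 2) F)) : Prop where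
  ii : i * i = -1
  jj : j * j = -1
  ji : j * i = -(i * j)

variable {i j : (Matrix (Fin 2) (Fin 2) F)}

lemma IJ.ij_i (h : IJ i j) : i * j * i = j := by
  rw [mul_assoc, h.ji, mul_neg, ← mul_assoc, h.ii, neg_mul, one_mul, neg_neg]

lemma IJ.i_ij (h : IJ i j) : i * (i * j) = -j := by rw [← mul_assoc, h.ii, neg_one_mul]

lemma IJ.ij_j (h : IJ i j) : i * j * j = -i := by rw [mul_assoc, h.jj, mul_neg_one]

lemma IJ.j_ij (h : IJ i j) : j * (i * j) = i := by
  rw [← mul_assoc, h.ji, neg_mul, h.ij_j, neg_neg]

lemma IJ.ij_ij (h : IJ i j) : i * j * (i * j) = -1 := by rw [← mul_assoc, h.ij_i, h.jj]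

lemma qq_mul (h : IJ i j) (a b c d a' b' c' d' : F) :
    qq i j a b c d * qq i j a' b' c' d' =
      qq i j (a * a' - b * b' - c * c' - d * d') (a * b' + b * a' + c * d' - d * c')
        (a * c' - b * d' + c * a' + d * b') (a * d' + b * c' - c * b' + d * a') := by
  simp only [qq, add_mul, mul_add, smul_mul, Matrix.mul_smul, one_mul, mul_one, h.ii, h.jj, h.ji,
    h.ij_i, h.i_ij, h.ij_j, h.j_ij, h.ij_ij]
  module

lemma qq_add (a b c d a' b' c' d' : F) :
    qq i j a b c d + qq i j a' b' c' d' = qq i j (a + a') (b + b') (c + c') (d + d') := by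
  simp only [qq]; module

lemma qq_neg (a b c d : F) : -qq i j a b c d = qq i j (-a) (-b) (-c) (-d) := by
  simp only [qq]; module

lemma qq_zero : qq i j 0 0 0 0 = 0 := by simp [qq]

lemma qq_one : qq i j 1 0 0 0 = 1 := by simp [qq]

lemma qq_i : qq i j 0 1 0 0 = i := by simp [qq]

lemma qq_j : qq i j 0 0 1 0 = j := by simp [qq]

lemma trace_eq_zero_of_sq {A : (Matrix (Fin 2) (Fin 2) F)} (hd : A.det = 1) (hA : A * A = -1) : A.trace = 0 := by
  have h := H69.mul_self_fin_two A
  rw [hA, hd, one_smul, eq_comm, sub_eq_neg_self] at h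
  have h00 := congrFun (congrFun h 0) 0
  have h01 := congrFun (congrFun h 0) 1
  simp at h00 h01
  rcases h00 with h' | h'
  · exact h'
  rcases h01 with h'' | h''
  · exact h''
  exfalso
  have e := congrFun (congrFun hA 0) 0
  simp [Matrix.mul_apply, Fin.sum_univ_two, h', h''] at e

lemma trace_qq (h : IJ i j) (hi : i.det = 1) (hj : j.det = 1) (h2 : (2 : F) ≠ 0) (a b c d : F) :
    (qq i j a b c d).trace = 2 * a := by
  have hij : (i * j).trace = 0 := by
    have h' := Matrix.trace_mul_comm i j
    rw [h.ji, Matrix.trace_neg] at h'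
    have : (2 : F) * (i * j).trace = 0 := by linear_combination h'
    exact (mul_eq_zero.1 this).resolve_left h2
  simp [qq, trace_eq_zero_of_sq hi h.ii, trace_eq_zero_of_sq hj h.jj, hij, mul_comm]

/-- Data on a Sylow 2-subgroup of `SL₂`. -/
theorem exists_quat_data [Fintype F] (h2 : (2 : F) ≠ 0) (Q : Sylow 2 SL(2, F)) :
    ∃ i ∈ (Q : Subgroup SL(2, F)), ∃ j ∈ (Q : Subgroup SL(2, F)),
      i * i = -1 ∧ j * j = -1 ∧ j * i = -(i * j) ∧
      (∀ R : Subgroup SL(2, F), (∀ a ∈ (Q : Subgroup SL(2, F)), ∀ b ∈ (Q : Subgroup SL(2, F)),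
        a * a = -1 → b * b = -1 → a * b⁻¹ ∈ R) → (Q : Subgroup SL(2, F)) ≤ R) ∧
      (8 < Nat.card (Q : Subgroup SL(2, F)) →
        ∀ A : SL(2, F), (∀ x ∈ (Q : Subgroup SL(2, F)), A * x * A⁻¹ ∈ (Q : Subgroup SL(2, F))) →
          A * i * A⁻¹ = i ∨ A * i * A⁻¹ = -i) ∧
      (¬ 8 < Nat.card (Q : Subgroup SL(2, F)) → ∀ x ∈ (Q : Subgroup SL(2, F)),
        x = 1 ∨ x = -1 ∨ x = i ∨ x = -i ∨ x = j ∨ x = -j ∨ x = i * j ∨ x = -(i * j)) := by
  obtain ⟨k, hk, ⟨φ⟩⟩ := H6.sylow_two_sl2 (F := F) rfl h2 Q
  set N := 2 ^ k with hN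
  have : NeZero N := ⟨by positivity⟩
  set m : ℕ := 2 ^ (k - 1) with hm
  have hNm : N = m + m := by
    rw [hN, hm, ← two_mul, ← pow_succ', show k - 1 + 1 = k by omega]
  have hm0 : 0 < m := Nat.two_pow_pos _
  let ψ : QuaternionGroup N → SL(2, F) := fun x => ((φ.symm x : (Q : Subgroup SL(2, F))) : SL(2, F))
  have hψ : ∀ x y, ψ (x * y) = ψ x * ψ y := fun x y => by simp [ψ]
  have hψinj : Function.Injective ψ := fun x y h => φ.symm.injective (Subtype.ext h)
  have hψmem : ∀ x, ψ x ∈ (Q : Subgroup SL(2, F)) := fun x => (φ.symm x).2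
  have hψsurj : ∀ x ∈ (Q : Subgroup SL(2, F)), ∃ y, ψ y = x := fun x hx =>
    ⟨φ ⟨x, hx⟩, by simp [ψ]⟩
  have hψ1 : ψ 1 = 1 := by simp [ψ]
  have hψN : ψ (QuaternionGroup.a (N : ZMod (2 * N))) = -1 := by
    have hsq : ψ (QuaternionGroup.a (N : ZMod (2 * N))) * ψ (QuaternionGroup.a (N : ZMod (2 * N))) = 1 := by
      rw [← hψ, QuaternionGroup.a_mul_a, ← hψ1, QuaternionGroup.one_def]
      congr 2
      rw [← Nat.cast_add, ← two_mul, ZMod.natCast_self]
    rcases H6.isScal_iff.1 (H6.isScal_of_mul_self_eq_one h2 hsq) with h | h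
    · exfalso
      rw [← hψ1, QuaternionGroup.one_def] at h
      have h' := QuaternionGroup.a.inj (hψinj h)
      rw [ZMod.natCast_eq_zero_iff] at h'
      exact absurd (Nat.le_of_dvd (NeZero.pos N) h') (by have := NeZero.pos N; omega)
    · exact h
  set i := ψ (QuaternionGroup.a (m : ZMod (2 * N))) with hi
  set j := ψ (QuaternionGroup.xa 0) with hj
  have hxsq : ∀ r, ψ (QuaternionGroup.xa r) * ψ (QuaternionGroup.xa r) = -1 := fun r => by
    rw [← hψ, QuaternionGroup.xa_mul_xa, add_sub_cancel_right, hψN]
  have hii : i * i = -1 := by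
    rw [hi, ← hψ, QuaternionGroup.a_mul_a, ← Nat.cast_add, ← hNm, hψN]
  have hneg : ∀ x, -ψ x = ψ (x * QuaternionGroup.a (N : ZMod (2 * N))) := fun x => by
    rw [hψ, hψN, mul_neg_one]
  refine ⟨i, hψmem _, j, hψmem _, hii, hxsq 0, ?_, ?_, ?_, ?_⟩
  · rw [hi, hj, ← hψ, ← hψ, hneg, QuaternionGroup.xa_mul_a, QuaternionGroup.a_mul_xa,
      QuaternionGroup.xa_mul_a]
    congr 2
    rw [zero_add, zero_sub, hNm, Nat.cast_add]
    ring
  · intro R hR x hx
    have hxa : ∀ r, ψ (QuaternionGroup.xa r) ∈ R := fun r => by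
      have h := hR _ (hψmem (QuaternionGroup.xa (r + (m : ZMod (2 * N))))) i (hψmem _) (hxsq _) hii
      have e : ψ (QuaternionGroup.xa (r + (m : ZMod (2 * N)))) = ψ (QuaternionGroup.xa r) * i := by
        rw [hi, ← hψ, QuaternionGroup.xa_mul_a]
      rwa [e, mul_inv_cancel_right] at h
    obtain ⟨y, rfl⟩ := hψsurj x hx
    cases y with
    | a r =>
      have h := R.mul_mem (hxa 0) (hxa (r - (N : ZMod (2 * N))))
      rw [← hψ, QuaternionGroup.xa_mul_xa] at h
      simpa using h
    | xa r => exact hxa r
  · intro h8 A hA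
    obtain ⟨y, hy⟩ := hψsurj _ (hA _ (hψmem (QuaternionGroup.a 1)))
    have hk2 : 4 < 2 * N := by
      rw [← Nat.card_congr φ.symm.toEquiv, Nat.card_eq_fintype_card, QuaternionGroup.card] at h8
      omega
    have hord : orderOf y = 2 * N := by
      rw [← orderOf_injective φ.symm.toMonoidHom φ.symm.injective, ← Subgroup.orderOf_coe]
      show orderOf (ψ y) = _
      rw [hy, show A * ψ (QuaternionGroup.a 1) * A⁻¹ = MulAut.conj A (ψ (QuaternionGroup.a 1)) from rfl,
        MulEquiv.orderOf_eq, Subgroup.orderOf_coe, MulEquiv.orderOf_eq, QuaternionGroup.orderOf_a_one]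
    cases y with
    | xa r => rw [QuaternionGroup.orderOf_xa] at hord; omega
    | a r =>
      have hpowψ : ∀ (x : QuaternionGroup N) (l : ℕ), ψ (x ^ l) = ψ x ^ l := fun x l => by simp [ψ]
      have hiA : A * i * A⁻¹ = ψ (QuaternionGroup.a r ^ m) := by
        rw [hpowψ, hy, conj_pow, hi, ← QuaternionGroup.a_one_pow, hpowψ]
      obtain ⟨r', hr'⟩ : ∃ r' : ℕ, r = (r' : ZMod (2 * N)) := ⟨r.val, (ZMod.natCast_zmod_val r).symm⟩
      have hpowa : QuaternionGroup.a r ^ m = QuaternionGroup.a (r * (m : ZMod (2 * N))) := by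
        rw [hr', ← QuaternionGroup.a_one_pow, ← pow_mul, QuaternionGroup.a_one_pow, Nat.cast_mul]
      rw [hiA, hpowa]
      have hodd : Odd r' := by
        rw [QuaternionGroup.orderOf_a] at hord
        have hg : Nat.gcd (2 * N) r.val = 1 :=
          (Nat.div_eq_self.1 hord).resolve_left (by omega)
        rw [Nat.odd_iff]
        by_contra he
        have h2r : 2 ∣ r.val := by
          rw [hr', ZMod.val_natCast]
          exact (Nat.dvd_mod_iff (Dvd.intro N rfl)).2 (Nat.dvd_of_mod_eq_zero (by omega))
        have := Nat.dvd_gcd (Dvd.intro N rfl : 2 ∣ 2 * N) h2r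
        rw [hg] at this; omega
      obtain ⟨c, hc⟩ := hodd
      have he : r * (m : ZMod (2 * N)) = (m : ZMod (2 * N)) + (c : ZMod (2 * N)) * (N : ZMod (2 * N)) := by
        rw [hr', hc, hNm]; push_cast; ring
      rw [he]
      rcases Nat.even_or_odd c with ⟨d, hd⟩ | ⟨d, hd⟩
      · left
        have : (c : ZMod (2 * N)) * (N : ZMod (2 * N)) = 0 := by
          rw [← Nat.cast_mul, hd, show (d + d) * N = d * (2 * N) by ring, Nat.cast_mul, ZMod.natCast_self, mul_zero]
        rw [this, add_zero]
      · right
        have : (c : ZMod (2 * N)) * (N : ZMod (2 * N)) = (N : ZMod (2 * N)) := by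
          rw [← Nat.cast_mul, hd, show (2 * d + 1) * N = d * (2 * N) + N by ring, Nat.cast_add, Nat.cast_mul,
            ZMod.natCast_self, mul_zero, zero_add]
        rw [this, hi, hneg, QuaternionGroup.a_mul_a]
  · intro h8 x hx
    have hk1 : k = 1 := by
      by_contra hne
      apply h8
      rw [← Nat.card_congr φ.symm.toEquiv, Nat.card_eq_fintype_card, QuaternionGroup.card, hN]
      have : 2 ^ 2 ≤ 2 ^ k := Nat.pow_le_pow_right two_pos (by omega)
      omega
    obtain ⟨y, rfl⟩ := hψsurj x hx
    have hm1 : m = 1 := by rw [hm, hk1]; rfl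
    have hN2 : N = 2 := by rw [hN, hk1]; rfl
    have hcase : ∀ r : ZMod (2 * N), r = 0 ∨ r = 1 ∨ r = 2 ∨ r = 3 := by
      intro r
      have hv := r.val_lt
      rw [← ZMod.natCast_zmod_val r]
      have : r.val = 0 ∨ r.val = 1 ∨ r.val = 2 ∨ r.val = 3 := by omega
      rcases this with h | h | h | h <;> rw [h] <;> simp
    have h4 : (4 : ZMod (2 * N)) = 0 := by
      have h4n : 2 * N = 4 := by omega
      calc (4 : ZMod (2 * N)) = ((4 : ℕ) : ZMod (2 * N)) := by simp
        _ = ((2 * N : ℕ) : ZMod (2 * N)) := congrArg Nat.cast h4n.symm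
        _ = 0 := ZMod.natCast_self _
    have hNcast : (N : ZMod (2 * N)) = 2 := by
      have : ((N : ℕ) : ZMod (2 * N)) = ((2 : ℕ) : ZMod (2 * N)) := congrArg Nat.cast hN2
      simpa using this
    have hmcast : (m : ZMod (2 * N)) = 1 := by
      have : ((m : ℕ) : ZMod (2 * N)) = ((1 : ℕ) : ZMod (2 * N)) := congrArg Nat.cast hm1
      simpa using this
    rw [hi, hj, ← hψ1, QuaternionGroup.one_def, ← hψ, hneg, hneg, hneg, hneg]
    simp only [QuaternionGroup.a_mul_a, QuaternionGroup.xa_mul_a, QuaternionGroup.a_mul_xa, hψinj.eq_iff,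
      hNcast, hmcast]
    have e1 : (0 : ZMod (2 * N)) - 1 = 3 := by linear_combination -h4
    cases y with
    | a r =>
      rcases hcase r with rfl | rfl | rfl | rfl <;> simp only [QuaternionGroup.a.injEq, reduceCtorEq, or_false] <;>
        first
        | (left; trivial)
        | (left; ring1)
        | (left; linear_combination h4)
        | (left; linear_combination -h4)
        | (right; left; trivial)
        | (right; left; ring1)
        | (right; left; linear_combination h4)
        | (right; left; linear_combination -h4)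
        | (right; right; left; trivial)
        | (right; right; left; ring1)
        | (right; right; left; linear_combination h4)
        | (right; right; left; linear_combination -h4)
        | (right; right; right; left; trivial)
        | (right; right; right; left; ring1)
        | (right; right; right; left; linear_combination h4)
        | (right; right; right; left; linear_combination -h4)
        | (right; right; right; trivial)
        | (right; right; right; ring1)
        | (right; right; right; linear_combination h4)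
        | (right; right; right; linear_combination -h4)
    | xa r =>
      rcases hcase r with rfl | rfl | rfl | rfl <;> simp only [QuaternionGroup.xa.injEq, reduceCtorEq, false_or] <;>
        first
        | (left; trivial)
        | (left; ring1)
        | (left; linear_combination h4)
        | (left; linear_combination -h4)
        | (right; left; trivial)
        | (right; left; ring1)
        | (right; left; linear_combination h4)
        | (right; left; linear_combination -h4)
        | (right; right; left; trivial)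
        | (right; right; left; ring1)
        | (right; right; left; linear_combination h4)
        | (right; right; left; linear_combination -h4)
        | (right; right; right; left; trivial)
        | (right; right; right; left; ring1)
        | (right; right; right; left; linear_combination h4)
        | (right; right; right; left; linear_combination -h4)
        | (right; right; right; trivial)
        | (right; right; right; ring1)
        | (right; right; right; linear_combination h4)
        | (right; right; right; linear_combination -h4)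

end Cfsg.Agent.H58.PSpFour
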